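import Mathlib
import Cfsg.Agent.H4.TnDefs
import Cfsg.Agent.H82.Irr
import Cfsg.Agent.H4.IrrCount
import Cfsg.Agent.H4.PaQb
import Cfsg.Agent.H4.TnCol

/-!
# S3805 team project (lead helper4): piece TN-F2 (helper90)

The fusion `uv ~ v` is impossible.
-/

set_option autoImplicit false
set_option maxHeartbeats 1600000

namespace Cfsg.Agent.H90.Tn

open Subgroup Cfsg Cfsg.Agent.H4.Tn

universe u

/-- The column inequality (second orthogonality relation restricted to a finite set of irreducible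
characters), as a hypothesis. -/
def StCol : Prop := ∀ (G : Type u) [Group G] [Finite G] (s : Finset (IrrCharacter G)) (g : G),
    ∑ χ ∈ s, Complex.normSq (χ.1 g) ≤ (Nat.card {c : G // c * g * c⁻¹ = g} : ℝ)

theorem normSq_intCast' (z : ℤ) : Complex.normSq ((z : ℤ) : ℂ) = (z : ℝ) ^ 2 := by
  rw [← Complex.ofReal_intCast, Complex.normSq_ofReal]; ring

theorem f2_of_col (hCol : StCol.{u}) (hD : StDecomp.{u}) (hS : StSwap.{u}) (hI : StInv.{u})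
    (hA : StInvA.{u}) (hL : StL1.{u}) (h12 : StIA12.{u}) (h9 : StIB9.{u}) (hNT : StNT)
    (hTw : StTwist.{u}) (hV : StVals.{u}) (hC : StCent.{u}) (hR3 : StRT3.{u}) (hR2 : StRT2.{u}) :
    StF2.{u} := by
  intro G _ _ T a b u v cfg huv h2
  classical
  -- (0)
  have h0 : ¬ IsConj (u * v) u := fun h => huv (h.symm.trans h2)
  have hg0 : (Nat.card G : ℂ) ≠ 0 := by
    have : 0 < Nat.card G := Nat.card_pos
    exact_mod_cast this.ne'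
  -- (1)
  obtain ⟨χ₁, χ₂, hdec⟩ := hD G T a b u v cfg
  have hemp : Nat.card {y : G // IsConj u y ∧ y * a * y⁻¹ = a⁻¹} = 0 := by
    have : IsEmpty {y : G // IsConj u y ∧ y * a * y⁻¹ = a⁻¹} := by
      refine ⟨fun ⟨y, hy1, hy2⟩ => ?_⟩
      have hyy : y * y = 1 := by
        obtain ⟨c, hc⟩ := isConj_iff.mp hy1
        rw [← hc]
        calc c * u * c⁻¹ * (c * u * c⁻¹) = c * (u * u) * c⁻¹ := by group
          _ = 1 := by rw [cfg.u2]; group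
      rcases hA G T a b u v cfg y hyy hy2 with h | h
      · exact huv (hy1.trans h.symm)
      · exact h0 (h.trans hy1.symm)
    exact Nat.card_of_isEmpty
  have hku : (Nat.card {y : G // IsConj u y} : ℂ) ≠ 0 := by
    have : 0 < Nat.card {y : G // IsConj u y} := by
      have : Nonempty {y : G // IsConj u y} := ⟨⟨u, IsConj.refl u⟩⟩
      exact Nat.card_pos
    exact_mod_cast this.ne'
  have hinvu := hI G T a b u v cfg χ₁ χ₂ hdec u cfg.u2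
  rw [hemp] at hinvu
  have hχu : χ₁.1 u = χ₁.1 1 := by
    have h1 : (18 : ℂ) * (Nat.card {y : G // IsConj u y} : ℂ) ^ 2 * (χ₁.1 1 - χ₁.1 u) ^ 2 = 0 := by
      rw [hinvu]; simp
    have h2' : (χ₁.1 1 - χ₁.1 u) ^ 2 = 0 := by
      rcases mul_eq_zero.mp h1 with h | h
      · rcases mul_eq_zero.mp h with h' | h'
        · norm_num at h'
        · exact absurd ((pow_eq_zero_iff (two_ne_zero)).mp h') hku
      · exact h
    have h3 : χ₁.1 1 - χ₁.1 u = 0 := (pow_eq_zero_iff (two_ne_zero)).mp h2'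
    exact (sub_eq_zero.mp h3).symm
  obtain ⟨h11, h1a, h1b⟩ := hL G T a b u v cfg χ₁ χ₂ hdec hχu
  have hmul : ∀ g h : G, χ₁.1 (g * h) = χ₁.1 g * χ₁.1 h :=
    Cfsg.Agent.H82.irr_linear_mul χ₁ h11
  have hc2 : χ₁.1 v * χ₁.1 v = 1 := by rw [← hmul, cfg.v2, h11]
  -- (2)
  have hinvv := hI G T a b u v cfg χ₁ χ₂ hdec v cfg.v2
  rw [h12 G T a b u v cfg h2, h11] at hinvv
  push_cast at hinvv
  have hcv : χ₁.1 v = -1 := by
    have h1 : (χ₁.1 v - 1) * (χ₁.1 v + 1) = 0 := by linear_combination hc2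
    rcases mul_eq_zero.mp h1 with h | h
    · exfalso
      have hc : χ₁.1 v = 1 := sub_eq_zero.mp h
      rw [hc] at hinvv
      apply hg0
      linear_combination (-1 / 288 : ℂ) * hinvv
    · linear_combination h
  rw [hcv] at hinvv
  have hk2 : (Nat.card {y : G // IsConj v y} : ℂ) ^ 2 = 4 * (Nat.card G : ℂ) := by
    linear_combination (1 / 72 : ℂ) * hinvv
  -- (3)
  have cfg' := hS G T a b u v cfg
  obtain ⟨θ₁, θ₂, hdec'⟩ := hD G T b a v u cfg'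
  have hinv' := hI G T b a v u cfg' θ₁ θ₂ hdec' v cfg.v2
  rw [h9 G T a b u v cfg h2 huv] at hinv'
  push_cast at hinv'
  obtain ⟨n₀, n₁, hn1, hnv⟩ :=
    hR2 G θ₁.1 (Cfsg.Agent.H4.isCharacter_of_isIrrCharacter θ₁.2) v cfg.v2
  rw [hn1, hnv] at hinv'
  have h3 : (Nat.card G : ℂ) * (8 * (2 * (n₁ : ℂ)) ^ 2 -
      9 * ((n₀ : ℂ) + n₁) * ((n₀ : ℂ) + n₁ + 1)) = 0 := by
    linear_combination (1 / 9 : ℂ) * hinv' - 2 * (2 * (n₁ : ℂ)) ^ 2 * hk2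
  have h3' : 8 * (2 * (n₁ : ℂ)) ^ 2 - 9 * ((n₀ : ℂ) + n₁) * ((n₀ : ℂ) + n₁ + 1) = 0 :=
    (mul_eq_zero.mp h3).resolve_left hg0
  have hZ : (8 : ℤ) * (2 * (n₁ : ℤ)) ^ 2 = 9 * ((n₀ : ℤ) + n₁) * ((n₀ : ℤ) + n₁ + 1) := by
    have : ((8 * (2 * (n₁ : ℤ)) ^ 2 : ℤ) : ℂ) =
        ((9 * ((n₀ : ℤ) + n₁) * ((n₀ : ℤ) + n₁ + 1) : ℤ) : ℂ) := by
      push_cast; linear_combination h3'
    exact_mod_cast this
  have he1 : 1 ≤ (n₀ : ℤ) + n₁ := by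
    obtain ⟨n, hn0, hn⟩ := Cfsg.Agent.H4.irr_one_eq_natCast θ₁
    have : ((n₀ + n₁ : ℕ) : ℂ) = (n : ℂ) := by
      push_cast; rw [← hn1]; exact hn
    have := Nat.cast_injective this
    omega
  obtain ⟨he8, he3⟩ := hNT ((n₀ : ℤ) + n₁) (2 * (n₁ : ℤ)) he1 hZ
  -- (4)
  obtain ⟨-, hba, hvb, -, hinvS⟩ := hV G T b a v u cfg'
  have hd1 : θ₂.1 1 = θ₁.1 1 + 1 := by
    have := hdec' 1
    unfold P1 at this
    rw [Set.indicator_of_notMem (hinvS 1 (one_mul 1))] at this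
    linear_combination -this
  have hdba : θ₂.1 (b * a) = θ₁.1 (b * a) - 2 := by
    have := hdec' (b * a)
    unfold P1 at this
    rw [Set.indicator_of_mem hba] at this
    linear_combination -this
  have hdvb : θ₂.1 (v * b) = θ₁.1 (v * b) - 2 := by
    have := hdec' (v * b)
    unfold P1 at this
    rw [Set.indicator_of_mem hvb] at this
    linear_combination -this
  obtain ⟨ψ₁, hψ₁⟩ := hTw G χ₁ θ₁ h11
  obtain ⟨ψ₂, hψ₂⟩ := hTw G χ₁ θ₂ h11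
  set tr : IrrCharacter G := Cfsg.Agent.H4.trivialIrr G with htr
  have htrv : ∀ g : G, tr.1 g = 1 := fun g => rfl
  -- degrees as integer casts
  set E : ℤ := (n₀ : ℤ) + n₁ with hE
  have dtr : tr.1 1 = ((1 : ℤ) : ℂ) := by rw [htrv]; simp
  have dχ : χ₁.1 1 = ((1 : ℤ) : ℂ) := by rw [h11]; simp
  have dθ₁ : θ₁.1 1 = ((E : ℤ) : ℂ) := by rw [hn1, hE]; push_cast; ring
  have dψ₁ : ψ₁.1 1 = ((E : ℤ) : ℂ) := by rw [hψ₁, h11, one_mul, dθ₁]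
  have dθ₂ : θ₂.1 1 = ((E + 1 : ℤ) : ℂ) := by rw [hd1, dθ₁]; push_cast; ring
  have dψ₂ : ψ₂.1 1 = ((E + 1 : ℤ) : ℂ) := by rw [hψ₂, h11, one_mul, dθ₂]
  have ne_of_deg : ∀ (x y : IrrCharacter G) (p q : ℤ), x.1 1 = ((p : ℤ) : ℂ) →
      y.1 1 = ((q : ℤ) : ℂ) → p ≠ q → x ≠ y := by
    intro x y p q hx hy hpq h
    subst h
    exact hpq (Int.cast_injective (hx.symm.trans hy))
  -- (5) distinctness
  have n_tr_χ : tr ≠ χ₁ := by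
    intro h
    have h' : tr.1 v = χ₁.1 v := by rw [h]
    rw [htrv, hcv] at h'
    norm_num at h'
  have n_tr_θ₁ : tr ≠ θ₁ := ne_of_deg _ _ 1 E dtr dθ₁ (by omega)
  have n_tr_ψ₁ : tr ≠ ψ₁ := ne_of_deg _ _ 1 E dtr dψ₁ (by omega)
  have n_tr_θ₂ : tr ≠ θ₂ := ne_of_deg _ _ 1 (E + 1) dtr dθ₂ (by omega)
  have n_tr_ψ₂ : tr ≠ ψ₂ := ne_of_deg _ _ 1 (E + 1) dtr dψ₂ (by omega)
  have n_χ_θ₁ : χ₁ ≠ θ₁ := ne_of_deg _ _ 1 E dχ dθ₁ (by omega)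
  have n_χ_ψ₁ : χ₁ ≠ ψ₁ := ne_of_deg _ _ 1 E dχ dψ₁ (by omega)
  have n_χ_θ₂ : χ₁ ≠ θ₂ := ne_of_deg _ _ 1 (E + 1) dχ dθ₂ (by omega)
  have n_χ_ψ₂ : χ₁ ≠ ψ₂ := ne_of_deg _ _ 1 (E + 1) dχ dψ₂ (by omega)
  have n_θ₁_θ₂ : θ₁ ≠ θ₂ := ne_of_deg _ _ E (E + 1) dθ₁ dθ₂ (by omega)
  have n_θ₁_ψ₂ : θ₁ ≠ ψ₂ := ne_of_deg _ _ E (E + 1) dθ₁ dψ₂ (by omega)
  have n_ψ₁_θ₂ : ψ₁ ≠ θ₂ := ne_of_deg _ _ E (E + 1) dψ₁ dθ₂ (by omega)
  have n_ψ₁_ψ₂ : ψ₁ ≠ ψ₂ := ne_of_deg _ _ E (E + 1) dψ₁ dψ₂ (by omega)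
  have n_θ₁_ψ₁ : θ₁ ≠ ψ₁ := by
    intro h
    have h' : θ₁.1 v = ψ₁.1 v := by rw [← h]
    rw [hψ₁, hcv, hnv] at h'
    have h'' : (n₀ : ℂ) - n₁ = 0 := by linear_combination (1 / 2 : ℂ) * h'
    have h01 : (n₀ : ℤ) = n₁ := by
      have : ((n₀ : ℤ) : ℂ) = ((n₁ : ℤ) : ℂ) := by
        push_cast; linear_combination h''
      exact_mod_cast this
    have hE' : E = 2 * (n₁ : ℤ) := by rw [hE, h01]; ring
    rw [hE'] at hZ he1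
    nlinarith [sq_nonneg (n₁ : ℤ)]
  -- values at `v * b`
  have hχvb : χ₁.1 (v * b) = -1 := by rw [hmul, hcv, h1b]; ring
  have hcent := hC G T b a v u cfg'
  -- (6)
  have n_θ₂_ψ₂ : θ₂ ≠ ψ₂ := by
    intro h
    have h' : θ₂.1 (v * b) = ψ₂.1 (v * b) := by rw [← h]
    rw [hψ₂, hχvb] at h'
    have hθ₂vb : θ₂.1 (v * b) = 0 := by linear_combination (1 / 2 : ℂ) * h'
    have hθ₁vb : θ₁.1 (v * b) = ((2 : ℤ) : ℂ) := by
      push_cast; linear_combination hθ₂vb - hdvb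
    have hψ₁vb : ψ₁.1 (v * b) = ((-2 : ℤ) : ℂ) := by
      rw [hψ₁, hχvb, hθ₁vb]; push_cast; ring
    have hcol := hCol G ({tr, χ₁, θ₁, ψ₁} : Finset (IrrCharacter G)) (v * b)
    rw [hcent.2.2, Finset.sum_insert (by simp [n_tr_χ, n_tr_θ₁, n_tr_ψ₁]),
      Finset.sum_insert (by simp [n_χ_θ₁, n_χ_ψ₁]), Finset.sum_insert (by simp [n_θ₁_ψ₁]),
      Finset.sum_singleton, htrv, hχvb, hθ₁vb, hψ₁vb, normSq_intCast', normSq_intCast'] at hcol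
    simp only [Complex.normSq_one, Complex.normSq_neg] at hcol
    norm_num at hcol
  -- (7)
  have hba3 : (b * a) ^ 3 = 1 := by
    have hcomm : Commute b a := cfg.comm b cfg.bT a cfg.aT
    rw [hcomm.mul_pow, cfg.a3, cfg.b3, one_mul]
  have hua' : u * a⁻¹ = a⁻¹ * u := by
    calc u * a⁻¹ = a⁻¹ * (a * u) * a⁻¹ := by group
      _ = a⁻¹ * (u * a) * a⁻¹ := by rw [cfg.ua]
      _ = a⁻¹ * u := by group
  have key : (u * v) * (b * a) = (b * a)⁻¹ * (u * v) := by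
    calc (u * v) * (b * a) = u * (v * b) * a := by group
      _ = u * (b * v) * a := by rw [cfg.vb]
      _ = (u * b) * (v * a) := by group
      _ = (b⁻¹ * u) * (a⁻¹ * v) := by rw [cfg.ub, cfg.va]
      _ = b⁻¹ * (u * a⁻¹) * v := by group
      _ = b⁻¹ * (a⁻¹ * u) * v := by rw [hua']
      _ = (a * b)⁻¹ * (u * v) := by group
      _ = (b * a)⁻¹ * (u * v) := by rw [cfg.comm a cfg.aT b cfg.bT]
  have hinvba : (u * v) * (b * a) * (u * v)⁻¹ = (b * a)⁻¹ := by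
    rw [key, mul_inv_cancel_right]
  obtain ⟨m₀, m₁, hm1, hmd⟩ :=
    hR3 G θ₁.1 (Cfsg.Agent.H4.isCharacter_of_isIrrCharacter θ₁.2) (b * a) (u * v) hba3 hinvba
  set d : ℤ := (m₀ : ℤ) - m₁ with hd
  have hEm : E = (m₀ : ℤ) + 2 * m₁ := by
    have : ((E : ℤ) : ℂ) = (((m₀ : ℤ) + 2 * m₁ : ℤ) : ℂ) := by
      rw [← dθ₁, hm1]; push_cast; ring
    exact_mod_cast this
  have vθ₁ : θ₁.1 (b * a) = ((d : ℤ) : ℂ) := by rw [hmd, hd]; push_cast; ring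
  have vχ : χ₁.1 (b * a) = ((1 : ℤ) : ℂ) := by rw [hmul, h1a, h1b]; simp
  have vψ₁ : ψ₁.1 (b * a) = ((d : ℤ) : ℂ) := by rw [hψ₁, vχ, vθ₁]; push_cast; ring
  have vθ₂ : θ₂.1 (b * a) = ((d - 2 : ℤ) : ℂ) := by rw [hdba, vθ₁]; push_cast; ring
  have vψ₂ : ψ₂.1 (b * a) = ((d - 2 : ℤ) : ℂ) := by rw [hψ₂, vχ, vθ₂]; push_cast; ring
  have vtr : tr.1 (b * a) = ((1 : ℤ) : ℂ) := by rw [htrv]; simp
  have hcol := hCol G ({tr, χ₁, θ₁, ψ₁, θ₂, ψ₂} : Finset (IrrCharacter G)) (b * a)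
  rw [hcent.2.1, Finset.sum_insert (by simp [n_tr_χ, n_tr_θ₁, n_tr_ψ₁, n_tr_θ₂, n_tr_ψ₂]),
    Finset.sum_insert (by simp [n_χ_θ₁, n_χ_ψ₁, n_χ_θ₂, n_χ_ψ₂]),
    Finset.sum_insert (by simp [n_θ₁_ψ₁, n_θ₁_θ₂, n_θ₁_ψ₂]),
    Finset.sum_insert (by simp [n_ψ₁_θ₂, n_ψ₁_ψ₂]),
    Finset.sum_insert (by simp [n_θ₂_ψ₂]),
    Finset.sum_singleton, vtr, vχ, vθ₁, vψ₁, vθ₂, vψ₂] at hcol
  simp only [normSq_intCast'] at hcol
  have hcolZ : (1 : ℤ) ^ 2 + (1 ^ 2 + (d ^ 2 + (d ^ 2 + ((d - 2) ^ 2 + (d - 2) ^ 2)))) ≤ 9 := by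
    have : (((1 : ℤ) ^ 2 + (1 ^ 2 + (d ^ 2 + (d ^ 2 + ((d - 2) ^ 2 + (d - 2) ^ 2)))) : ℤ) : ℝ) ≤
        ((9 : ℤ) : ℝ) := by
      push_cast
      push_cast at hcol
      linarith
    exact_mod_cast this
  have hd1' : d = 1 := by
    rcases le_or_gt d 0 with h | h
    · nlinarith
    · rcases le_or_gt 2 d with h' | h'
      · nlinarith
      · omega
  apply he3
  have : E = 3 * (m₁ : ℤ) + 1 := by omega
  omega

/-- TN-F2: the fusion `uv ~ v` is impossible. -/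
theorem f2 (hD : StDecomp.{u}) (hS : StSwap.{u}) (hI : StInv.{u}) (hA : StInvA.{u})
    (hL : StL1.{u}) (h12 : StIA12.{u}) (h9 : StIB9.{u}) (hNT : StNT) (hTw : StTwist.{u})
    (hV : StVals.{u}) (hC : StCent.{u}) (hR3 : StRT3.{u}) (hR2 : StRT2.{u}) : StF2.{u} :=
  f2_of_col (fun _ _ _ s g => Cfsg.Agent.H4.Tn.col_le s g) hD hS hI hA hL h12 h9 hNT hTw hV hC
    hR3 hR2

example (hD : Cfsg.Agent.H4.Tn.StDecomp.{u}) (hS : Cfsg.Agent.H4.Tn.StSwap.{u})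
    (hI : Cfsg.Agent.H4.Tn.StInv.{u}) (hA : Cfsg.Agent.H4.Tn.StInvA.{u})
    (hL : Cfsg.Agent.H4.Tn.StL1.{u}) (h12 : Cfsg.Agent.H4.Tn.StIA12.{u})
    (h9 : Cfsg.Agent.H4.Tn.StIB9.{u}) (hNT : Cfsg.Agent.H4.Tn.StNT)
    (hTw : Cfsg.Agent.H4.Tn.StTwist.{u}) (hV : Cfsg.Agent.H4.Tn.StVals.{u})
    (hC : Cfsg.Agent.H4.Tn.StCent.{u}) (hR3 : Cfsg.Agent.H4.Tn.StRT3.{u})
    (hR2 : Cfsg.Agent.H4.Tn.StRT2.{u}) : Cfsg.Agent.H4.Tn.StF2.{u} :=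
  Cfsg.Agent.H90.Tn.f2 hD hS hI hA hL h12 h9 hNT hTw hV hC hR3 hR2

end Cfsg.Agent.H90.Tn

#print axioms Cfsg.Agent.H90.Tn.f2
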