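import Mathlib

set_option autoImplicit false

/-!
S4588 piece NC (for helper84): a finite group whose Sylow `p`-subgroup is trivial, or of order `2` with
`p = 2`, has a normal subgroup consisting exactly of the `p`-regular elements.
-/

namespace Cfsg.Agent.H90.K0

theorem exists_normal_regular {K : Type*} [Group K] [Finite K] (p : ℕ) [Fact p.Prime]
    (Q : Sylow p K) (hQ : Nat.card Q = 1 ∨ (p = 2 ∧ Nat.card Q = 2)) :
    ∃ N : Subgroup K, N.Normal ∧ ∀ y : K, ¬ p ∣ orderOf y ↔ y ∈ N := by
  have hp : p.Prime := Fact.out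
  rcases hQ with hQ | ⟨rfl, hQ⟩
  · refine ⟨⊤, inferInstance, fun y => ⟨fun _ => Subgroup.mem_top y, fun _ hdvd => ?_⟩⟩
    have h1 := Q.card_eq_multiplicity
    rw [hQ] at h1
    have h2 : (Nat.card K).factorization p = 0 := by
      by_contra h
      have : 1 < p ^ (Nat.card K).factorization p := Nat.one_lt_pow h hp.one_lt
      omega
    have h3 : ¬ p ∣ Nat.card K := by
      rcases (Nat.factorization_eq_zero_iff _ _).1 h2 with h | h | h
      · exact absurd hp h
      · exact h
      · exact absurd h Nat.card_pos.ne'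
    exact h3 (hdvd.trans (orderOf_dvd_natCard y))
  · have h2K : 2 ∣ Nat.card K := by
      have := Subgroup.card_subgroup_dvd_card (Q : Subgroup K)
      rwa [hQ] at this
    have hmin : (Nat.card K).minFac = 2 := (Nat.minFac_eq_two_iff _).2 h2K
    have hcyc : IsCyclic (Q : Subgroup K) := by
      haveI : Fact (Nat.Prime 2) := ⟨Nat.prime_two⟩
      exact isCyclic_of_prime_card (p := 2) hQ
    have hNC := hcyc.normalizer_le_centralizer hmin
    have hcompl := MonoidHom.ker_transferSylow_isComplement' Q hNC
    have hnd := MonoidHom.not_dvd_card_ker_transferSylow Q hNC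
    refine ⟨(MonoidHom.transferSylow Q hNC).ker, inferInstance, fun y => ⟨fun hy => ?_, fun hy hdvd => ?_⟩⟩
    · have hidx : (MonoidHom.transferSylow Q hNC).ker.index = 2 := by
        rw [hcompl.symm.index_eq_card, hQ]
      have hsq : y ^ 2 ∈ (MonoidHom.transferSylow Q hNC).ker := by
        have := Subgroup.pow_index_mem (MonoidHom.transferSylow Q hNC).ker y
        rwa [hidx] at this
      have hcop : Nat.Coprime 2 (orderOf y) := (Nat.Prime.coprime_iff_not_dvd Nat.prime_two).2 hy
      obtain ⟨m, hm⟩ := exists_pow_eq_self_of_coprime hcop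
      rw [← hm]
      exact Subgroup.pow_mem _ hsq m
    · exact hnd (hdvd.trans (Subgroup.orderOf_dvd_natCard _ hy))

end Cfsg.Agent.H90.K0
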