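import Mathlib

set_option autoImplicit false

/-!
S4588 piece TW (for helper84): a linear character of a finite group with abelian Sylow `p`-subgroup taking a
prescribed value on a central `p`-element and trivial on the `p`-regular elements (transfer twist).
-/

namespace Cfsg.Agent.H90.K0

open Subgroup

/-- the values of a transfer have order dividing the order of the subgroup. -/
theorem transfer_pow_card {C : Type*} [Group C] [Finite C] (H : Subgroup C) (μ : ↥H →* ℂˣ) (y : C) :
    (MonoidHom.transfer μ y) ^ Nat.card H = 1 := by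
  classical
  rw [MonoidHom.transfer_def μ default y]
  unfold Subgroup.leftTransversals.diff
  simp only
  rw [← Finset.prod_pow]
  refine Finset.prod_eq_one (fun q _ => ?_)
  rw [← map_pow, pow_card_eq_one', map_one]

theorem exists_twist {C : Type*} [Group C] [Finite C] (p : ℕ) [Fact p.Prime]
    (P : Sylow p C) (hP : ∀ a ∈ (P : Subgroup C), ∀ b ∈ (P : Subgroup C), a * b = b * a)
    (z : C) (hz : z ∈ Subgroup.center C) (hzp : ∃ k : ℕ, orderOf z = p ^ k)
    (ω : ℂˣ) (hω : ω ^ orderOf z = 1) :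
    ∃ τ : C →* ℂˣ, τ z = ω ∧ ∀ y : C, ¬ p ∣ orderOf y → τ y = 1 := by
  classical
  have hp : p.Prime := Fact.out
  obtain ⟨k, hk⟩ := hzp
  -- `z ∈ P`
  have hzc : ∀ g : C, g * z = z * g := fun g => Subgroup.mem_center_iff.1 hz g
  have hzn : (Subgroup.zpowers z).Normal := by
    refine ⟨fun n hn g => ?_⟩
    obtain ⟨i, rfl⟩ := Subgroup.mem_zpowers_iff.1 hn
    have hc : Commute g (z ^ i) := (show Commute g z from hzc g).zpow_right i
    have : g * z ^ i * g⁻¹ = z ^ i := by rw [hc.eq]; group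
    rw [this]
    exact Subgroup.mem_zpowers_iff.2 ⟨i, rfl⟩
  have hzpg : IsPGroup p (Subgroup.zpowers z) := by
    refine IsPGroup.of_card (n := k) ?_
    rw [Nat.card_zpowers, hk]
  have hzP : z ∈ (P : Subgroup C) := (hzpg.le_sylow_of_normal P) (Subgroup.mem_zpowers z)
  -- the commutative group structure on `P`
  letI instP : CommGroup ↥(P : Subgroup C) :=
    { (inferInstance : Group ↥(P : Subgroup C)) with
      mul_comm := fun a b => Subtype.ext (hP a a.2 b b.2) }
  let z' : ↥(P : Subgroup C) := ⟨z, hzP⟩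
  have hordz' : orderOf z' = orderOf z := Subgroup.orderOf_mk z hzP
  let gz : ↥(Subgroup.zpowers z') := ⟨z', Subgroup.mem_zpowers z'⟩
  have hgz : ∀ x : ↥(Subgroup.zpowers z'), x ∈ Subgroup.zpowers gz := by
    rintro ⟨x, hx⟩
    obtain ⟨i, rfl⟩ := Subgroup.mem_zpowers_iff.1 hx
    exact Subgroup.mem_zpowers_iff.2 ⟨i, Subtype.ext (by simp [gz])⟩
  have hordgz : orderOf gz = orderOf z := by
    rw [← hordz']
    exact Subgroup.orderOf_mk z' (Subgroup.mem_zpowers z')
  have hω' : orderOf ω ∣ orderOf gz := by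
    rw [hordgz]
    exact orderOf_dvd_of_pow_eq_one hω
  let μ0 : ↥(Subgroup.zpowers z') →* ℂˣ := monoidHomOfForallMemZpowers hgz hω'
  have hμ0 : μ0 gz = ω := monoidHomOfForallMemZpowers_apply_gen hgz hω'
  haveI : NeZero (Monoid.exponent ↥(P : Subgroup C)) := ⟨Monoid.exponent_ne_zero_of_finite⟩
  obtain ⟨μ, hμ⟩ := MonoidHom.domRestrict_surjective (M := ℂ) (Subgroup.zpowers z') μ0
  have hμz : μ z' = ω := by
    have h1 : (MonoidHom.domRestrictHom (Subgroup.zpowers z') ℂˣ μ) gz = μ0 gz := by rw [hμ]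
    rw [hμ0] at h1
    exact h1
  -- the transfer
  let V : C →* ℂˣ := MonoidHom.transfer μ
  have hkey : ∀ (i : ℕ) (g₀ : C), g₀⁻¹ * z ^ i * g₀ ∈ (P : Subgroup C) → g₀⁻¹ * z ^ i * g₀ = z ^ i := by
    intro i g₀ _
    have hc : Commute g₀ (z ^ i) := (show Commute g₀ z from hzc g₀).pow_right i
    rw [mul_assoc, ← hc.eq]; group
  have hVz : V z = ω ^ (P : Subgroup C).index := by
    have h1 := MonoidHom.transfer_eq_pow μ z hkey
    have h2 : (⟨z ^ (P : Subgroup C).index, MonoidHom.transfer_eq_pow_aux z hkey⟩ : ↥(P : Subgroup C)) =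
        z' ^ (P : Subgroup C).index := Subtype.ext rfl
    rw [h2, map_pow, hμz] at h1
    exact h1
  have hcop : Nat.Coprime (P : Subgroup C).index (orderOf ω) := by
    have h1 : orderOf ω ∣ p ^ k := hk ▸ orderOf_dvd_of_pow_eq_one hω
    obtain ⟨j, -, hj⟩ := (Nat.dvd_prime_pow hp).1 h1
    rw [hj]
    apply Nat.Coprime.pow_right
    exact Nat.coprime_comm.1 ((Nat.Prime.coprime_iff_not_dvd hp).2 P.not_dvd_index)
  obtain ⟨m, hm⟩ := exists_pow_eq_self_of_coprime hcop
  refine ⟨(powMonoidHom m).comp V, ?_, ?_⟩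
  · show (V z) ^ m = ω
    rw [hVz, hm]
  · intro y hy
    show (V y) ^ m = 1
    have h1 : (V y) ^ Nat.card (P : Subgroup C) = 1 := transfer_pow_card (P : Subgroup C) μ y
    have h2 : (V y) ^ orderOf y = 1 := by rw [← map_pow, pow_orderOf_eq_one, map_one]
    have h3 : orderOf (V y) ∣ Nat.gcd (Nat.card (P : Subgroup C)) (orderOf y) :=
      Nat.dvd_gcd (orderOf_dvd_of_pow_eq_one h1) (orderOf_dvd_of_pow_eq_one h2)
    have h4 : Nat.gcd (Nat.card (P : Subgroup C)) (orderOf y) = 1 := by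
      obtain ⟨j, hj⟩ := P.2.exists_card_eq
      rw [hj]
      exact Nat.Coprime.pow_left j ((Nat.Prime.coprime_iff_not_dvd hp).2 hy)
    rw [h4, Nat.dvd_one, orderOf_eq_one_iff] at h3
    rw [h3, one_pow]

end Cfsg.Agent.H90.K0
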