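import Mathlib
import Cfsg.Prelude.Def_FusionSystem
import Cfsg.Agent.H88.FactorSat
import Cfsg.Agent.H90.CTNormal

set_option autoImplicit false
set_option maxHeartbeats 1600000

/-!
Control of transfer in fusion systems, the quotient step: the focal subgroup of a normalizer system of a
factor system lifts to the focal subgroup of the normalizer system of the preimage.
-/

namespace Cfsg.Agent.H90

open Cfsg Cfsg.FusionSystem Cfsg.Agent.H86 Cfsg.Agent.H88

universe u

variable {Ω : Type u} [Group Ω] {S : Subgroup Ω}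

/-- Lifting the focal subgroup of a normalizer system of a factor system. -/
theorem exists_lift_nfoc [Finite S] {F : FusionSystem S} {T : Subgroup Ω}
    {Ω' : Type*} [Group Ω'] {S' : Subgroup Ω'} {θ : S →* Ω'} {E : FusionSystem S'}
    (hE : F.IsFactorSystem T θ E) (V' : Subgroup Ω') :
    ∀ w ∈ nfoc E V', ∃ m ∈ nfoc F (preimageAlong θ V'), tot θ m = w := by
  have hfocS : nfoc F (preimageAlong θ V') ≤ S := (nfoc_le_focal F _).trans (focal_le_top' F)
  intro w hw
  unfold nfoc at hw
  induction hw using Subgroup.closure_induction with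
  | mem w hw =>
    obtain ⟨D', f', x', ⟨hV'D', hD'N, hf', himg'⟩, hx', rfl⟩ := hw
    obtain ⟨f, hf, H⟩ := factor_lift hE hf'
    have hUD : preimageAlong θ V' ≤ preimageAlong θ D' := by
      intro u hu
      rw [mem_preimageAlong_iff] at hu ⊢
      exact ⟨hu.1, hV'D' hu.2⟩
    haveI : Finite (preimageAlong θ V' : Subgroup Ω) := finite_of_le (preimageAlong_le θ V')
    have hconj : ∀ d ∈ preimageAlong θ D', ∀ u ∈ preimageAlong θ V',
        d * u * d⁻¹ ∈ preimageAlong θ V' := by
      intro d hd u hu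
      rw [mem_preimageAlong_iff] at hd hu ⊢
      refine ⟨S.mul_mem (S.mul_mem hd.1 hu.1) (S.inv_mem hd.1), ?_⟩
      rw [tot_conj θ hd.1 hu.1]
      have hdN := (mem_normalizerIn_iff.1 (hD'N hd.2)).2
      exact conj_mem_of_mem_normalizer hdN hu.2
    have hN : NMor F (preimageAlong θ V') (preimageAlong θ D') f := by
      refine ⟨hUD, ?_, hf, ?_⟩
      · intro d hd
        rw [mem_normalizerIn_iff]
        refine ⟨preimageAlong_le θ D' hd, mem_normalizer_of_forall_conj_mem
          (fun u hu => hconj d hd u hu) (fun u hu => ?_)⟩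
        have := hconj d⁻¹ (Subgroup.inv_mem _ hd) u hu
        simpa using this
      · refine imgS_eq_of_maps (hf.restrict hUD) (fun u hu => ?_)
        rw [mem_preimageAlong_iff]
        refine ⟨hf.mem (hUD hu), ?_⟩
        rw [← H u (hUD hu)]
        have h1 : f' (tot θ u) ∈ imgS V' f' :=
          (hf'.restrict hV'D').mem_imgS_of_mem (mem_preimageAlong_iff.1 hu).2
        rwa [himg'] at h1
    obtain ⟨x, hxS, rfl⟩ := exists_tot_eq hE (hf'.le hx')
    have hxD : x ∈ preimageAlong θ D' := mem_preimageAlong_iff.2 ⟨hxS, hx'⟩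
    refine ⟨x⁻¹ * f x, mem_nfoc hN hxD, ?_⟩
    rw [tot_mul θ (S.inv_mem hxS) (hf.mem hxD), tot_inv θ hxS, H x hxD]
  | one => exact ⟨1, Subgroup.one_mem _, tot_one θ⟩
  | mul a b _ _ ha hb =>
    obtain ⟨m₁, hm₁, rfl⟩ := ha
    obtain ⟨m₂, hm₂, rfl⟩ := hb
    exact ⟨m₁ * m₂, Subgroup.mul_mem _ hm₁ hm₂, tot_mul θ (hfocS hm₁) (hfocS hm₂)⟩
  | inv a _ ha =>
    obtain ⟨m₁, hm₁, rfl⟩ := ha
    exact ⟨m₁⁻¹, Subgroup.inv_mem _ hm₁, tot_inv θ (hfocS hm₁)⟩

/-- The quotient step: if the focal subgroup of the factor system modulo `T` lies in the focal subgroup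
of the normalizer system of `V'`, then every element of the focal subgroup of `F` is, modulo `T`, in
the focal subgroup of the normalizer system of the preimage of `V'`. -/
theorem exists_nfoc_mul_of_factor [Finite S] {p : ℕ} [Fact p.Prime] (hS : IsPGroup p S)
    {F : FusionSystem S} (hF : F.IsSaturated p) {T : Subgroup Ω} (hT : F.StronglyClosed T)
    {Ω' : Type*} [Group Ω'] {S' : Subgroup Ω'} {θ : S →* Ω'} {E : FusionSystem S'}
    (hE : F.IsFactorSystem T θ E) (V' : Subgroup Ω') (h : E.focalSubgroup ≤ nfoc E V') :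
    ∀ z ∈ F.focalSubgroup, ∃ m ∈ nfoc F (preimageAlong θ V'), m⁻¹ * z ∈ T := by
  intro z hz
  obtain ⟨hzS, hz'⟩ := tot_mem_focal hS hF hT hE z hz
  obtain ⟨m, hm, hmz⟩ := exists_lift_nfoc hE V' _ (h hz')
  have hmS : m ∈ S := (nfoc_le_focal F _).trans (focal_le_top' F) hm
  exact ⟨m, hm, (tot_eq_iff hE hmS hzS).1 hmz⟩

end Cfsg.Agent.H90
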