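import Mathlib
import Cfsg.Prelude.Def_FusionSystem
import Cfsg.Agent.H86.PredSys
import Cfsg.Agent.H88.Basic
import Cfsg.Agent.H90.CTQuot

set_option autoImplicit false
set_option maxHeartbeats 3200000

/-!
Control of transfer in saturated fusion systems: a positive isomorphism-invariant functor `W` on
finite `p`-groups with `O_p(G) ∩ G' = O_p(G) ∩ N_G(W(P))'` in every finite group `G` with
`C_G(O_p(G)) ≤ O_p(G)` satisfies `foc(F) = foc(N_F(W(S)))` for every saturated fusion system.
-/

namespace Cfsg.Agent.H90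

open Cfsg Cfsg.FusionSystem Cfsg.Agent.H86 Cfsg.Agent.H88

universe u

theorem WS_ne_bot {Ω : Type u} [Group Ω] {p : ℕ} [Fact p.Prime]
    {W : ∀ (Q : Type u) [Group Q], Subgroup Q}
    (hW1 : ∀ (Q : Type u) [Group Q] [Finite Q], IsPGroup p Q → Nontrivial Q → W Q ≠ ⊥)
    {P : Subgroup Ω} [Finite P] (hP : IsPGroup p P) (hne : P ≠ ⊥) : WS W P ≠ ⊥ := by
  have hnt : Nontrivial ↥P := (Subgroup.nontrivial_iff_ne_bot P).2 hne
  have h1 := hW1 ↥P hP hnt
  intro h
  apply h1
  unfold WS at h
  exact (Subgroup.map_eq_bot_iff_of_injective _ P.subtype_injective).1 h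

theorem ct_main {p : ℕ} [Fact p.Prime]
    {W : ∀ (Q : Type u) [Group Q], Subgroup Q}
    (hW1 : ∀ (Q : Type u) [Group Q] [Finite Q], IsPGroup p Q → Nontrivial Q → W Q ≠ ⊥)
    (hW2 : ∀ (Q R : Type u) [Group Q] [Group R] [Finite Q], IsPGroup p Q →
      ∀ φ : Q ≃* R, (W Q).map φ.toMonoidHom = W R)
    (hT : CTHyp p W) :
    ∀ (n m : ℕ) (Ω : Type u) [Group Ω] (S : Subgroup Ω) [Finite S], Nat.card S = n → IsPGroup p S →
      ∀ F : FusionSystem S, F.IsSaturated p → Nat.card S - Nat.card F.core = m →
        F.focalSubgroup ≤ nfoc F (WS W S) := by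
  intro n
  induction n using Nat.strong_induction_on with
  | _ n ih1 =>
  intro m
  induction m using Nat.strong_induction_on with
  | _ m ih2 =>
  intro Ω _ S _ hn hS F hF hm
  classical
  obtain ⟨K, hK⟩ : ∃ K : Subgroup Ω, K = nfoc F (WS W S) := ⟨_, rfl⟩
  rw [← hK]
  have hKS : K ≤ S := by rw [hK]; exact (nfoc_le_focal F _).trans (focal_le_top' F)
  have hVS : WS W S ≤ S := WS_le W S
  have hVn : ∀ s ∈ S, ∀ y ∈ WS W S, s * y * s⁻¹ ∈ WS W S := fun s hs y hy =>
    WS_conj_mem hW2 hS (Subgroup.le_normalizer hs) hy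
  have hcomm : ∀ a ∈ S, ∀ b ∈ S, a⁻¹ * (b * a * b⁻¹) ∈ K := by
    intro a ha b hb
    rw [hK]
    exact comm_mem_nfoc hVS hVn ha hb
  -- the induction hypothesis for the normalizer system of a nontrivial subgroup
  have hnorm : ∀ U : Subgroup Ω, F.IsFullyNormalized U → U ≠ ⊥ →
      (normalizerIn S U = S → Nat.card F.core < Nat.card U) →
      nfoc F U ≤ nfoc F (WS W (normalizerIn S U)) := by
    intro U hUfn hUne hcard
    have hUS : U ≤ S := hUfn.1
    have hT'S : normalizerIn S U ≤ S := inf_le_left
    haveI hfinT' : Finite (normalizerIn S U) := finite_of_le hT'S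
    have hT'p : IsPGroup p (normalizerIn S U) := hS.to_le hT'S
    have hEU : F.IsNormalizerSystem U (Cfsg.Agent.H89.normalizerSystem F U hUS) :=
      Cfsg.Agent.H89.normalizerSystem_isNormalizerSystem F U hUS
    have hEUsat := Cfsg.Agent.H88.normalizerSystem_saturated hS hF hUfn _ hEU
    rw [← focal_normalizerSystem hUS hEU]
    refine le_trans ?_ (nfoc_normalizerSystem_le hEU)
    by_cases hN : normalizerIn S U = S
    · -- same order, larger core
      have hUcore : U ≤ (Cfsg.Agent.H89.normalizerSystem F U hUS).core :=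
        le_sSup (Cfsg.Agent.H88.normalizerSystem_isNormal hUS hEU)
      have hcoreT' : (Cfsg.Agent.H89.normalizerSystem F U hUS).core ≤ normalizerIn S U :=
        (isNormal_core (Cfsg.Agent.H89.normalizerSystem F U hUS)).1
      haveI : Finite ((Cfsg.Agent.H89.normalizerSystem F U hUS).core : Subgroup Ω) :=
        finite_of_le (hcoreT'.trans hT'S)
      have h1 : Nat.card U ≤ Nat.card ((Cfsg.Agent.H89.normalizerSystem F U hUS).core : Subgroup Ω) :=
        Subgroup.card_le_of_le hUcore
      have h2 : Nat.card ((Cfsg.Agent.H89.normalizerSystem F U hUS).core : Subgroup Ω) ≤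
          Nat.card (normalizerIn S U) := Subgroup.card_le_of_le hcoreT'
      have h3 := hcard hN
      have h4 : Nat.card (normalizerIn S U) = n := by rw [hN]; exact hn
      have hcoreS : F.core ≤ S := (isNormal_core F).1
      haveI : Finite (F.core : Subgroup Ω) := finite_of_le hcoreS
      have h5 : Nat.card (F.core : Subgroup Ω) ≤ Nat.card S := Subgroup.card_le_of_le hcoreS
      refine ih2 (Nat.card (normalizerIn S U) -
        Nat.card ((Cfsg.Agent.H89.normalizerSystem F U hUS).core : Subgroup Ω)) (by omega)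
        Ω (normalizerIn S U) h4 hT'p _ hEUsat rfl
    · have hlt : Nat.card (normalizerIn S U) < n := by
        rw [← hn]
        exact card_lt_card_of_lt (lt_of_le_of_ne hT'S hN)
      exact ih1 _ hlt _ Ω (normalizerIn S U) rfl hT'p _ hEUsat rfl
  by_cases hcore : F.core = ⊥
  · -- trivial core: Alperin and well-placed chains
    have hcard1 : Nat.card (F.core : Subgroup Ω) = 1 := by rw [hcore]; exact Subgroup.card_bot
    have chain : ∀ P : Subgroup Ω, WGood W F P → P ≠ ⊥ → nfoc F (WS W P) ≤ K := by
      intro P hP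
      induction hP with
      | top => intro _; rw [hK]
      | step P hPS hfn hgood ih' =>
        intro hPne
        haveI hfinP : Finite P := finite_of_le hPS
        have hPp : IsPGroup p P := hS.to_le hPS
        have hPN : P ≤ normalizerIn S (WS W P) := le_normalizerIn_WS hW2 hPp hPS
        have hT'ne : normalizerIn S (WS W P) ≠ ⊥ := by
          intro h
          apply hPne
          rw [h] at hPN
          exact le_bot_iff.1 hPN
        have hUne : WS W P ≠ ⊥ := WS_ne_bot hW1 hPp hPne
        refine (hnorm (WS W P) hfn hUne (fun _ => ?_)).trans (ih' hT'ne)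
        rw [hcard1]
        haveI : Finite (WS W P) := finite_of_le ((WS_le W P).trans hPS)
        exact (Subgroup.one_lt_card_iff_ne_bot _).2 hUne
    -- the predicate
    have hcongr : ∀ (P : Subgroup Ω) (f g : Ω → Ω), Mor F P f → (∀ y ∈ P, f y = g y) →
        (∀ y ∈ P, y⁻¹ * f y ∈ K) → ∀ y ∈ P, y⁻¹ * g y ∈ K := by
      intro P f g _ hfg hgood y hy
      rw [← hfg y hy]
      exact hgood y hy
    have hconj : ∀ (P : Subgroup Ω) (g : Ω), P ≤ S → g ∈ S → ∀ y ∈ P, y⁻¹ * (g * y * g⁻¹) ∈ K :=
      fun P g hP hg y hy => hcomm y (hP hy) g hg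
    have hcomp : ∀ (P Q : Subgroup Ω) (f g : Ω → Ω), Mor F P f → Mor F Q g → (∀ y ∈ P, f y ∈ Q) →
        (∀ y ∈ P, y⁻¹ * f y ∈ K) → (∀ y ∈ Q, y⁻¹ * g y ∈ K) → ∀ y ∈ P, y⁻¹ * (g ∘ f) y ∈ K := by
      intro P Q f g _ _ hmaps hgf hgg y hy
      have h1 := K.mul_mem (hgf y hy) (hgg (f y) (hmaps y hy))
      have e : y⁻¹ * f y * ((f y)⁻¹ * g (f y)) = y⁻¹ * (g ∘ f) y := by
        simp [mul_assoc]
      rwa [e] at h1
    have hinv : ∀ (P : Subgroup Ω) (f : Ω → Ω), Mor F P f → (∀ y ∈ P, y⁻¹ * f y ∈ K) →
        ∀ z ∈ imgS P f, z⁻¹ * invOn P f z ∈ K := by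
      intro P f hf hgood z hz
      obtain ⟨y, hy, rfl⟩ := hf.mem_imgS.1 hz
      rw [invOn_apply hf.injOn hy]
      have h1 := K.inv_mem (hgood y hy)
      have e : (y⁻¹ * f y)⁻¹ = (f y)⁻¹ * y := by group
      rwa [e] at h1
    -- downward induction on the essential subgroups
    have claim : ∀ (k : ℕ) (R : Subgroup Ω), (R = S ∨ F.IsEssential p R) →
        Nat.card S - Nat.card R = k →
        ∀ α ∈ F.autGroup R, ∀ y ∈ R, y⁻¹ * autFun R α y ∈ K := by
      intro k
      induction k using Nat.strong_induction_on with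
      | _ k ihk =>
      intro R hR hk α hα
      have hRS : R ≤ S := by
        rcases hR with rfl | hess
        · exact le_rfl
        · exact hess.1.1
      have hαM := (mem_autGroup_iff hRS α).1 hα
      by_cases hReq : R = S
      · subst hReq
        have hNM : NMor F (WS W R) R (autFun R α) :=
          ⟨WS_le W R, le_normalizerIn_WS hW2 hS le_rfl, hαM, WS_aut hW2 hS hαM (imgS_autFun hαM)⟩
        intro y hy
        rw [hK]
        exact mem_nfoc hNM hy
      · have hess : F.IsEssential p R := by
          rcases hR with h | h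
          · exact absurd h hReq
          · exact h
        have hRlt : R < S := lt_of_le_of_ne hRS hReq
        have hNS : normalizerIn S R ≤ S := inf_le_left
        haveI hfinN : Finite (normalizerIn S R) := finite_of_le hNS
        haveI hfinR : Finite R := finite_of_le hRS
        have hcardN : Nat.card R < Nat.card (normalizerIn S R) :=
          card_lt_card_of_lt (lt_normalizerIn hS hRlt)
        have hRN : R ≤ normalizerIn S R := le_normalizerIn hRS
        -- larger maps are good
        have IH : ∀ (P : Subgroup Ω) (f : Ω → Ω), Mor F P f → Nat.card R + 1 ≤ Nat.card P →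
            ∀ y ∈ P, y⁻¹ * f y ∈ K := by
          refine alperin_pred hS hF (fun P f => ∀ y ∈ P, y⁻¹ * f y ∈ K) hcongr hconj hcomp hinv
            (Nat.card R + 1) ?_
          intro R' hR' hcard α' hα'
          have hR'S : R' ≤ S := by
            rcases hR' with rfl | hess'
            · exact le_rfl
            · exact hess'.1.1
          have h1 : Nat.card R' ≤ Nat.card S := Subgroup.card_le_of_le hR'S
          exact ihk (Nat.card S - Nat.card R') (by omega) R' hR' rfl α' hα'
        obtain ⟨ψ, hψ, hgoodψ⟩ := exists_wgood (W := W) hS hW2 hF (normalizerIn S R) hNS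
        have hψR : Mor F R ψ := hψ.restrict hRN
        obtain ⟨hQfn, hNQ⟩ := fullyNormalized_imgS hess.2.1 hψ
        have hQc : F.IsCentric (imgS R ψ) :=
          ⟨hQfn.1, fun Q' hQ' => hess.1.2 Q' (isConj_trans (isConj_iff.2 ⟨ψ, hψR, rfl⟩) hQ')⟩
        -- `R` is not trivial
        have hRne : R ≠ ⊥ := by
          intro hbot
          apply hReq
          apply le_antisymm hRS
          intro s hs
          have h1 : s ∈ centralizerIn S R := by
            rw [mem_centralizerIn_iff]
            refine ⟨hs, fun x hx => ?_⟩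
            rw [hbot, Subgroup.mem_bot] at hx
            rw [hx, one_mul, mul_one]
          exact hess.1.2 R (isConj_refl F hRS) h1
        have hT₁ne : imgS (normalizerIn S R) ψ ≠ ⊥ := by
          intro hbot
          apply hRne
          have h1 : imgS R ψ ≤ imgS (normalizerIn S R) ψ := hψ.imgS_mono hRN
          rw [hbot] at h1
          have h2 : Nat.card (imgS R ψ) = 1 := by
            rw [le_bot_iff.1 h1]; exact Subgroup.card_bot
          rw [hψR.card_imgS] at h2
          exact (Subgroup.card_eq_one).1 h2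
        have hchain := chain _ hgoodψ hT₁ne
        have hmodel := comm_mem_nfoc_of_model hS hW2 hT hF hQfn hQc
        rw [hNQ] at hmodel
        have hinvM : Mor F (imgS R ψ) (invOn R ψ) := hψR.inv
        have h1 : Mor F (imgS R ψ) (autFun R α ∘ invOn R ψ) :=
          hinvM.comp hαM (fun y hy => hψR.invOn_mem hy)
        have h2 : Mor F (imgS R ψ) (ψ ∘ (autFun R α ∘ invOn R ψ)) :=
          h1.comp hψR (fun y hy => autFun_mem α (hψR.invOn_mem hy))
        haveI : Finite (imgS R ψ) := finite_of_le hψR.imgS_le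
        have himg : imgS (imgS R ψ) (ψ ∘ (autFun R α ∘ invOn R ψ)) = imgS R ψ :=
          imgS_eq_of_maps h2 (fun y hy => hψR.mem_imgS_of_mem (autFun_mem α (hψR.invOn_mem hy)))
        intro y hy
        have hfy : autFun R α y ∈ R := autFun_mem α hy
        have hb := hchain (hmodel _ h2 himg (ψ y) (hψR.mem_imgS_of_mem hy))
        have hb' : (ψ y)⁻¹ * ψ (autFun R α y) ∈ K := by
          have e : (ψ ∘ (autFun R α ∘ invOn R ψ)) (ψ y) = ψ (autFun R α y) := by
            show ψ (autFun R α (invOn R ψ (ψ y))) = _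
            rw [invOn_apply hψR.injOn hy]
          rwa [e] at hb
        have ha := IH _ ψ hψ (by omega) y (hRN hy)
        have hc := IH _ ψ hψ (by omega) (autFun R α y) (hRN hfy)
        have h3 := K.mul_mem (K.mul_mem ha hb') (K.inv_mem hc)
        have e : y⁻¹ * ψ y * ((ψ y)⁻¹ * ψ (autFun R α y)) *
            ((autFun R α y)⁻¹ * ψ (autFun R α y))⁻¹ = y⁻¹ * autFun R α y := by group
        rwa [e] at h3
    rw [focal_le_iff]
    intro P f hf x hx
    exact alperin_pred hS hF (fun P f => ∀ y ∈ P, y⁻¹ * f y ∈ K) hcongr hconj hcomp hinv 0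
      (fun R hR _ α hα => claim _ R hR rfl α hα) P f hf (Nat.zero_le _) x hx
  · -- nontrivial core: pass to the factor system
    have hQ : F.IsNormal F.core := isNormal_core F
    have hQcl : F.StronglyClosed F.core := IsNormal.stronglyClosed hQ
    have hQS : F.core ≤ S := hQ.1
    have hQn : ∀ s ∈ S, ∀ y ∈ F.core, s * y * s⁻¹ ∈ F.core := fun s hs y hy =>
      Cfsg.Agent.H89.stronglyClosed_conj_mem hQcl hs hy
    have hQK : ∀ f, Mor F F.core f → imgS F.core f = F.core → ∀ y ∈ F.core, y⁻¹ * f y ∈ K := by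
      rw [hK]
      exact comm_mem_nfoc_of_normal hS hW2 hT hF hQS hQn
    have hQfoc := normal_inf_focal_le hS hF hQ hKS hcomm hQK
    by_cases hQtop : F.core = S
    · intro z hz
      exact hQfoc z (by rw [hQtop]; exact focal_le_top' F hz) hz
    · haveI hnormal : (F.core.subgroupOf S).Normal := by
        refine ⟨fun x hx g => ?_⟩
        rw [Subgroup.mem_subgroupOf] at hx ⊢
        exact hQn g g.2 x hx
      obtain ⟨E, hE⟩ := exists_factorSystem F F.core hQcl
      have hEsat : E.IsSaturated p := factor_saturated hS hF hQcl hE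
      have hS'p : IsPGroup p (⊤ : Subgroup (S ⧸ F.core.subgroupOf S)) :=
        (hS.to_quotient _).to_subgroup ⊤
      haveI : Finite (⊤ : Subgroup (S ⧸ F.core.subgroupOf S)) := inferInstance
      -- the factor system is smaller
      have hlt : Nat.card (⊤ : Subgroup (S ⧸ F.core.subgroupOf S)) < n := by
        rw [Subgroup.card_top, ← hn, Subgroup.card_eq_card_quotient_mul_card_subgroup (F.core.subgroupOf S)]
        have h1 : 1 < Nat.card (F.core.subgroupOf S) := by
          rw [Subgroup.one_lt_card_iff_ne_bot]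
          intro hbot
          apply hcore
          rw [eq_bot_iff]
          intro q hq
          have : (⟨q, hQS hq⟩ : S) ∈ F.core.subgroupOf S := Subgroup.mem_subgroupOf.2 hq
          rw [hbot, Subgroup.mem_bot] at this
          rw [Subgroup.mem_bot]
          exact congrArg Subtype.val this
        have h2 : 0 < Nat.card (S ⧸ F.core.subgroupOf S) := Nat.card_pos
        nlinarith
      have hIH := ih1 _ hlt _ (S ⧸ F.core.subgroupOf S) ⊤ rfl hS'p E hEsat rfl
      obtain ⟨U, hU⟩ : ∃ U : Subgroup Ω, U = preimageAlong (QuotientGroup.mk' (F.core.subgroupOf S))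
          (WS W (⊤ : Subgroup (S ⧸ F.core.subgroupOf S))) := ⟨_, rfl⟩
      have hlift := exists_nfoc_mul_of_factor hS hF hQcl hE _ hIH
      rw [← hU] at hlift
      have hUS : U ≤ S := by rw [hU]; exact preimageAlong_le _ _
      have hQU : F.core ≤ U := by rw [hU]; exact le_preimageAlong hE _
      have hUn : ∀ s ∈ S, ∀ y ∈ U, s * y * s⁻¹ ∈ U := by
        intro s hs y hy
        rw [hU, mem_preimageAlong_iff] at hy ⊢
        refine ⟨S.mul_mem (S.mul_mem hs hy.1) (S.inv_mem hs), ?_⟩
        rw [tot_conj _ hs hy.1]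
        exact WS_conj_mem hW2 hS'p (Subgroup.le_normalizer (Subgroup.mem_top _)) hy.2
      have hUfn : F.IsFullyNormalized U := fullyNormalized_of_normal F hUS hUn
      -- `U` is strictly larger than the core
      have hVne : WS W (⊤ : Subgroup (S ⧸ F.core.subgroupOf S)) ≠ ⊥ := by
        apply WS_ne_bot hW1 hS'p
        intro htop
        apply hQtop
        apply le_antisymm hQS
        intro s hs
        have h1 : (QuotientGroup.mk' (F.core.subgroupOf S) ⟨s, hs⟩ : S ⧸ F.core.subgroupOf S) ∈
            (⊤ : Subgroup (S ⧸ F.core.subgroupOf S)) := Subgroup.mem_top _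
        rw [htop, Subgroup.mem_bot] at h1
        exact (hE.2.1 ⟨s, hs⟩).1 h1
      obtain ⟨v, hv1⟩ := (Subgroup.ne_bot_iff_exists_ne_one).1 hVne
      have hUlt : F.core < U := by
        refine lt_of_le_of_ne hQU (fun heq => ?_)
        obtain ⟨u, huS, hu⟩ := exists_tot_eq hE (Subgroup.mem_top (v : S ⧸ F.core.subgroupOf S))
        have huU : u ∈ U := by
          rw [hU, mem_preimageAlong_iff]
          exact ⟨huS, by rw [hu]; exact v.2⟩
        rw [← heq] at huU
        have h1 := (tot_eq_one_iff hE huS).2 huU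
        rw [hu] at h1
        exact hv1 (Subtype.ext h1)
      haveI : Finite U := finite_of_le hUS
      have hUne : U ≠ ⊥ := by
        intro hbot
        rw [hbot] at hUlt
        exact not_lt_bot hUlt
      have hNU : normalizerIn S U = S := by
        apply le_antisymm inf_le_left
        intro s hs
        refine ⟨hs, mem_normalizer_of_forall_conj_mem (fun y hy => hUn s hs y hy) (fun y hy => ?_)⟩
        have h := hUn s⁻¹ (S.inv_mem hs) y hy
        simpa using h
      have hnU := hnorm U hUfn hUne (fun _ => card_lt_card_of_lt hUlt)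
      rw [hNU, ← hK] at hnU
      intro z hz
      obtain ⟨m₀, hm₀, hmz⟩ := hlift z hz
      have h1 : m₀⁻¹ * z ∈ F.focalSubgroup :=
        Subgroup.mul_mem _ (Subgroup.inv_mem _ (nfoc_le_focal F _ hm₀)) hz
      have h2 := K.mul_mem (hnU hm₀) (hQfoc _ hmz h1)
      rwa [mul_inv_cancel_left] at h2

/-- **Control of transfer**: the focal subgroup of the normalizer system of `W(S)` is the focal
subgroup of the system. -/
theorem ct_focal_eq {p : ℕ} [Fact p.Prime]
    {W : ∀ (Q : Type u) [Group Q], Subgroup Q}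
    (hW1 : ∀ (Q : Type u) [Group Q] [Finite Q], IsPGroup p Q → Nontrivial Q → W Q ≠ ⊥)
    (hW2 : ∀ (Q R : Type u) [Group Q] [Group R] [Finite Q], IsPGroup p Q →
      ∀ φ : Q ≃* R, (W Q).map φ.toMonoidHom = W R)
    (hT : CTHyp p W) {Ω : Type u} [Group Ω] {S : Subgroup Ω} [Finite S] (hS : IsPGroup p S)
    (F : FusionSystem S) (hF : F.IsSaturated p)
    (N : FusionSystem (normalizerIn S (WS W S))) (hN : F.IsNormalizerSystem (WS W S) N) :
    N.focalSubgroup = F.focalSubgroup := by
  rw [focal_normalizerSystem (WS_le W S) hN]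
  exact le_antisymm (nfoc_le_focal F _) (ct_main hW1 hW2 hT _ _ Ω S rfl hS F hF rfl)

end Cfsg.Agent.H90
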