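import Mathlib
import Cfsg.Prelude.Def_FusionSystem
import Cfsg.Agent.H86.WPlaced
import Cfsg.Agent.H86.GrpLemmas
import Cfsg.Agent.H86.FusExt
import Cfsg.Agent.H86.MaxClassEss
import Cfsg.Agent.H88.NormModel
import Cfsg.Agent.H89.Normalizer
import Cfsg.Agent.H90.Model
import Cfsg.Agent.H86.WModel2
import Cfsg.Prelude.Def_FusionReduction
import Cfsg.Prelude.Def_LocalEven

set_option autoImplicit false
set_option maxHeartbeats 800000

/-!
Control of weak closure of elements, the local steps, for a local hypothesis on a pair `z, x` that is only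
required for finite groups not involving a fixed group `H`, in a fusion system that is `H`-free (variant of
helper86's `WModel2`).
-/

namespace Cfsg.Agent.H90

open Cfsg Cfsg.FusionSystem Cfsg.Agent.H86

universe u

variable {Ω : Type u} [Group Ω] {S : Subgroup Ω}

/-- The local hypothesis for the pair `z, x`, for groups not involving `H`: whenever a subgroup `P₁ ∋ z, x` in which `z` is central is
embedded as a Sylow `p`-subgroup of a finite group `G`, with the images of `z` and `x` in `O_p(G)`, and the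
image of `x` is centralized by `N_G(W(T))`, the image of `x` is central in `G`. -/
def LocHypF (p : ℕ) (W : ∀ (Q : Type u) [Group Q], Subgroup Q) (H : Type*) [Group H] (z x : Ω) :
    Prop :=
  ∀ (G : Type u) [Group G] [Finite G] (T : Sylow p G) (P₁ : Subgroup Ω) (ι : ↥P₁ →* G)
    (hz : z ∈ P₁) (hx : x ∈ P₁), ¬ Involves H G → Function.Injective ι → (T : Subgroup G) = ι.range →
    (∀ y ∈ P₁, y * z = z * y) → ι ⟨z, hz⟩ ∈ pCore p G → ι ⟨x, hx⟩ ∈ pCore p G →
    (∀ h ∈ Subgroup.normalizer ((WS W (T : Subgroup G) : Subgroup G) : Set G),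
      h * ι ⟨x, hx⟩ = ι ⟨x, hx⟩ * h) →
    ι ⟨x, hx⟩ ∈ Subgroup.center G

/-- The model step. -/
theorem aut_fixes_of_model3 [Finite S] {p : ℕ} [Fact p.Prime] (hS : IsPGroup p S)
    {W : ∀ (Q : Type u) [Group Q], Subgroup Q}
    (hW2 : ∀ (Q R : Type u) [Group Q] [Group R] [Finite Q], IsPGroup p Q →
      ∀ φ : Q ≃* R, (W Q).map φ.toMonoidHom = W R)
    (hWZ : ∀ (Q : Type u) [Group Q] [Finite Q], IsPGroup p Q → Subgroup.center Q ≤ W Q)
    {F : FusionSystem S} (hF : F.IsSaturated p) {H : Type*} [Group H]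
    (hfree : F.IsSectionFree p H) {Q : Subgroup Ω} (hQn : F.IsFullyNormalized Q)
    (hQc : F.IsCentric Q) {z x : Ω} (hloc : LocHypF p W H z x) (hzS : z ∈ S)
    (hzZ : ∀ s ∈ S, s * z = z * s) (hxS : x ∈ S) (hxZ : ∀ s ∈ S, s * x = x * s)
    (hW : ∀ g, Mor F (WS W (normalizerIn S Q)) g →
      imgS (WS W (normalizerIn S Q)) g = WS W (normalizerIn S Q) → g x = x) :
    ∀ f, Mor F Q f → imgS Q f = Q → f x = x := by
  have hQS : Q ≤ S := hQn.1
  have hP₁S : normalizerIn S Q ≤ S := inf_le_left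
  have hQP₁ : Q ≤ normalizerIn S Q := le_normalizerIn hQS
  haveI hfinP₁ : Finite (normalizerIn S Q) := finite_of_le hP₁S
  have hP₁p : IsPGroup p (normalizerIn S Q) := hS.to_le hP₁S
  have hE : F.IsNormalizerSystem Q (Cfsg.Agent.H89.normalizerSystem F Q hQS) :=
    Cfsg.Agent.H89.normalizerSystem_isNormalizerSystem F Q hQS
  have hEsat := Cfsg.Agent.H88.normalizerSystem_saturated hS hF hQn _ hE
  have hEn := Cfsg.Agent.H88.normalizerSystem_isNormal hQS hE
  have hEc := Cfsg.Agent.H88.normalizerSystem_isCentric hQc hE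
  obtain ⟨G, _, ι, hmodel, hιQn, -⟩ := Cfsg.Agent.H90.exists_model hP₁p hEsat hEn hEc
  have hnotinv : ¬ Involves H G := hfree Q hQn hQc _ hE G ι hmodel
  obtain ⟨hfinG, ⟨hinj, hreal⟩, ⟨T, hT⟩, -⟩ := hmodel
  -- `x ∈ Q`
  have hxQ : x ∈ Q := by
    refine hQc.2 Q (isConj_refl F hQS) ?_
    rw [mem_centralizerIn_iff]
    exact ⟨hxS, fun y hy => hxZ y (hQS hy)⟩
  have hxP₁ : x ∈ normalizerIn S Q := hQP₁ hxQ
  -- the image of `x` lies in `O_p(G)`
  have hιxcore : ι ⟨x, hxP₁⟩ ∈ pCore p G := by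
    have hp : IsPGroup p ((Q.subgroupOf (normalizerIn S Q)).map ι) :=
      (hP₁p.to_subgroup (Q.subgroupOf (normalizerIn S Q))).map ι
    refine le_pCore hιQn hp ?_
    exact ⟨⟨x, hxP₁⟩, Subgroup.mem_subgroupOf.2 hxQ, rfl⟩
  -- the isomorphism of `N_S(Q)` with the Sylow subgroup
  let e : ↥(normalizerIn S Q) ≃* ↥(T : Subgroup G) :=
    (MonoidHom.ofInjective hinj).trans (MulEquiv.subgroupCongr hT.symm)
  have he : ∀ z : ↥(normalizerIn S Q), ((e z : ↥(T : Subgroup G)) : G) = ι z := fun z => rfl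
  have hmemT := fun (y : G) => mem_WS_equiv hW2 hP₁p e (y := y)
  have hxW : x ∈ WS W (normalizerIn S Q) :=
    center_mem_WS hWZ hP₁p hxP₁ (fun y hy => hxZ y (hP₁S hy))
  have hιxWT : ι ⟨x, hxP₁⟩ ∈ WS W (T : Subgroup G) := (hmemT _).2 ⟨⟨x, hxP₁⟩, hxW, rfl⟩
  have hWP₁ : WS W (normalizerIn S Q) ≤ normalizerIn S Q := WS_le W _
  haveI hfinW : Finite (WS W (normalizerIn S Q)) := finite_of_le (hWP₁.trans hP₁S)
  -- central in the normalizer of `W(T)`
  have hcomm : ∀ h ∈ Subgroup.normalizer ((WS W (T : Subgroup G) : Subgroup G) : Set G),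
      h * ι ⟨x, hxP₁⟩ = ι ⟨x, hxP₁⟩ * h := by
    intro h hh
    have hval : ∀ y : ↥(WS W (normalizerIn S Q)),
        (MulAut.conj h).toMonoidHom.comp (ι.comp (Subgroup.inclusion hWP₁)) y ∈ (T : Subgroup G) := by
      intro y
      have h1 : ι (Subgroup.inclusion hWP₁ y) ∈ WS W (T : Subgroup G) :=
        (hmemT _).2 ⟨Subgroup.inclusion hWP₁ y, y.2, rfl⟩
      have h2 : h * ι (Subgroup.inclusion hWP₁ y) * h⁻¹ ∈ WS W (T : Subgroup G) :=
        (Subgroup.mem_normalizer_iff.1 hh _).1 h1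
      exact WS_le W _ h2
    let φ : ↥(WS W (normalizerIn S Q)) →* Ω :=
      (normalizerIn S Q).subtype.comp (e.symm.toMonoidHom.comp
        (((MulAut.conj h).toMonoidHom.comp (ι.comp (Subgroup.inclusion hWP₁))).codRestrict
          (T : Subgroup G) hval))
    have hφval : ∀ y : ↥(WS W (normalizerIn S Q)), φ y ∈ normalizerIn S Q := fun y =>
      (e.symm ((((MulAut.conj h).toMonoidHom.comp (ι.comp (Subgroup.inclusion hWP₁))).codRestrict
          (T : Subgroup G) hval) y)).2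
    have hφι : ∀ y : ↥(WS W (normalizerIn S Q)),
        ι ⟨φ y, hφval y⟩ = h * ι ⟨y, hWP₁ y.2⟩ * h⁻¹ := by
      intro y
      have h1 : ι ⟨φ y, hφval y⟩ = ((e ⟨φ y, hφval y⟩ : ↥(T : Subgroup G)) : G) := (he _).symm
      rw [h1]
      have h2 : (⟨φ y, hφval y⟩ : ↥(normalizerIn S Q)) =
          e.symm ((((MulAut.conj h).toMonoidHom.comp (ι.comp (Subgroup.inclusion hWP₁))).codRestrict
          (T : Subgroup G) hval) y) := rfl
      rw [h2, MulEquiv.apply_symm_apply]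
      rfl
    have hφE : φ ∈ (Cfsg.Agent.H89.normalizerSystem F Q hQS).Hom (WS W (normalizerIn S Q)) :=
      (hreal _ hWP₁ φ hφval).2 ⟨h, hφι⟩
    have hφF : φ ∈ F.Hom (WS W (normalizerIn S Q)) := by
      rw [hE] at hφE
      exact hφE.1
    have hφM : Mor F (WS W (normalizerIn S Q)) (extFun _ φ) := mor_extFun hφF
    have himg : imgS (WS W (normalizerIn S Q)) (extFun _ φ) = WS W (normalizerIn S Q) := by
      refine imgS_eq_of_maps hφM (fun y hy => ?_)
      rw [extFun_of_mem _ φ hy]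
      have h1 : ι ⟨y, hWP₁ hy⟩ ∈ WS W (T : Subgroup G) := (hmemT _).2 ⟨⟨y, hWP₁ hy⟩, hy, rfl⟩
      have h2 : h * ι ⟨y, hWP₁ hy⟩ * h⁻¹ ∈ WS W (T : Subgroup G) :=
        (Subgroup.mem_normalizer_iff.1 hh _).1 h1
      obtain ⟨z, hz, hze⟩ := (hmemT _).1 h2
      have h3 : ι ⟨φ ⟨y, hy⟩, hφval ⟨y, hy⟩⟩ = ι z := by
        rw [hφι ⟨y, hy⟩]
        exact hze.symm
      have h4 := hinj h3
      have h5 : φ ⟨y, hy⟩ = (z : Ω) := congrArg Subtype.val h4
      rw [h5]
      exact hz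
    have hfix := hW _ hφM himg
    rw [extFun_of_mem _ φ hxW] at hfix
    have h1 := hφι ⟨x, hxW⟩
    have h2 : (⟨φ ⟨x, hxW⟩, hφval ⟨x, hxW⟩⟩ : ↥(normalizerIn S Q)) = ⟨x, hxP₁⟩ := Subtype.ext hfix
    rw [h2] at h1
    have h3 : h * ι ⟨x, hxP₁⟩ = (h * ι ⟨x, hxP₁⟩ * h⁻¹) * h := by group
    rw [h3, ← h1]
  -- `ι x` is central in `G`
  have hzQ : z ∈ Q := by
    refine hQc.2 Q (isConj_refl F hQS) ?_
    rw [mem_centralizerIn_iff]
    exact ⟨hzS, fun y hy => hzZ y (hQS hy)⟩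
  have hzP₁ : z ∈ normalizerIn S Q := hQP₁ hzQ
  have hιzcore : ι ⟨z, hzP₁⟩ ∈ pCore p G := by
    have hp : IsPGroup p ((Q.subgroupOf (normalizerIn S Q)).map ι) :=
      (hP₁p.to_subgroup (Q.subgroupOf (normalizerIn S Q))).map ι
    refine le_pCore hιQn hp ?_
    exact ⟨⟨z, hzP₁⟩, Subgroup.mem_subgroupOf.2 hzQ, rfl⟩
  have hιxZ : ι ⟨x, hxP₁⟩ ∈ Subgroup.center G :=
    hloc G T (normalizerIn S Q) ι hzP₁ hxP₁ hnotinv hinj hT (fun y hy => hzZ y (hP₁S hy)) hιzcore hιxcore hcomm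
  -- conclusion
  intro f hf himg
  have hfE : Mor (Cfsg.Agent.H89.normalizerSystem F Q hQS) Q f := by
    rw [Cfsg.Agent.H88.mor_normalizerSystem_iff hE]
    refine ⟨hQP₁, fun y hy => hQP₁ ?_, f, ?_, fun _ _ => rfl, himg⟩
    · have := hf.mem_imgS_of_mem hy
      rwa [himg] at this
    · rw [sup_idem]
      exact hf
  obtain ⟨φ', hφ', hφ'f⟩ := hfE
  have hφ'val : ∀ y : Q, φ' y ∈ normalizerIn S Q :=
    ((Cfsg.Agent.H89.normalizerSystem F Q hQS).le_of_mem hφ').2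
  obtain ⟨g, hg⟩ := (hreal Q hQP₁ φ' hφ'val).1 hφ'
  have h1 := hg ⟨x, hxQ⟩
  have h2 : g * ι ⟨x, hxP₁⟩ * g⁻¹ = ι ⟨x, hxP₁⟩ := by
    have := Subgroup.mem_center_iff.1 hιxZ g
    rw [this]
    group
  have h3 : ι ⟨φ' ⟨x, hxQ⟩, hφ'val ⟨x, hxQ⟩⟩ = ι ⟨x, hxP₁⟩ := by
    rw [h1]
    exact h2
  have h4 := congrArg Subtype.val (hinj h3)
  rw [← hφ'f ⟨x, hxQ⟩]
  exact h4

/-- The step for a subgroup normal in `S`. -/
theorem aut_fixes_of_normal3 [Finite S] {p : ℕ} [Fact p.Prime] (hS : IsPGroup p S)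
    {W : ∀ (Q : Type u) [Group Q], Subgroup Q}
    (hW2 : ∀ (Q R : Type u) [Group Q] [Group R] [Finite Q], IsPGroup p Q →
      ∀ φ : Q ≃* R, (W Q).map φ.toMonoidHom = W R)
    (hWZ : ∀ (Q : Type u) [Group Q] [Finite Q], IsPGroup p Q → Subgroup.center Q ≤ W Q)
    {F : FusionSystem S} (hF : F.IsSaturated p) {H : Type*} [Group H]
    (hfree : F.IsSectionFree p H) {U : Subgroup Ω} (hUS : U ≤ S)
    (hUn : ∀ s ∈ S, ∀ y ∈ U, s * y * s⁻¹ ∈ U) {z x : Ω} (hloc : LocHypF p W H z x) (hzS : z ∈ S)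
    (hzZ : ∀ s ∈ S, s * z = z * s) (hxS : x ∈ S) (hxZ : ∀ s ∈ S, s * x = x * s)
    (hW : ∀ g, Mor F (WS W S) g → imgS (WS W S) g = WS W S → g x = x) :
    ∀ f, Mor F U f → imgS U f = U → x ∈ U → f x = x := by
  intro f hf himg hxU
  have hCS : centralizerIn S U ≤ S := inf_le_left
  have hDS : U ⊔ centralizerIn S U ≤ S := sup_le hUS hCS
  -- `C_S(U)` is normalized by `S`
  have hCn : ∀ s ∈ S, ∀ c ∈ centralizerIn S U, s * c * s⁻¹ ∈ centralizerIn S U := by
    intro s hs c hc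
    obtain ⟨hcS, hcU⟩ := mem_centralizerIn_iff.1 hc
    rw [mem_centralizerIn_iff]
    refine ⟨S.mul_mem (S.mul_mem hs hcS) (S.inv_mem hs), fun u hu => ?_⟩
    have h1 : s⁻¹ * u * s ∈ U := by
      have := hUn s⁻¹ (S.inv_mem hs) u hu
      simpa using this
    have h2 := hcU _ h1
    calc u * (s * c * s⁻¹) = s * ((s⁻¹ * u * s) * c) * s⁻¹ := by group
      _ = s * (c * (s⁻¹ * u * s)) * s⁻¹ := by rw [h2]
      _ = s * c * s⁻¹ * u := by group
  have hDn : ∀ s ∈ S, ∀ y ∈ U ⊔ centralizerIn S U, s * y * s⁻¹ ∈ U ⊔ centralizerIn S U := by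
    intro s hs y hy
    have h1 : (MulAut.conj s).toMonoidHom y ∈ (U ⊔ centralizerIn S U).map (MulAut.conj s).toMonoidHom :=
      Subgroup.mem_map_of_mem _ hy
    rw [Subgroup.map_sup] at h1
    have h2 : U.map (MulAut.conj s).toMonoidHom ⊔ (centralizerIn S U).map (MulAut.conj s).toMonoidHom ≤
        U ⊔ centralizerIn S U := by
      refine sup_le_sup ?_ ?_
      · rintro _ ⟨u, hu, rfl⟩
        exact hUn s hs u hu
      · rintro _ ⟨c, hc, rfl⟩
        exact hCn s hs c hc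
    exact h2 h1
  have hDfn : F.IsFullyNormalized (U ⊔ centralizerIn S U) := fullyNormalized_of_normal F hDS hDn
  have hDr : F.IsReceptive (U ⊔ centralizerIn S U) :=
    saturated_receptive_of_fullyCentralized hS hF (saturated_fullyNormalized hS hF hDfn).1
  have hDc : F.IsCentric (U ⊔ centralizerIn S U) := by
    refine centric_of_receptive hDr ?_
    intro c hc
    obtain ⟨hcS, hcD⟩ := mem_centralizerIn_iff.1 hc
    refine Subgroup.mem_sup_right ?_
    rw [mem_centralizerIn_iff]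
    exact ⟨hcS, fun u hu => hcD u (Subgroup.mem_sup_left hu)⟩
  have hND : normalizerIn S (U ⊔ centralizerIn S U) = S := by
    apply le_antisymm inf_le_left
    intro s hs
    refine ⟨hs, mem_normalizer_of_forall_conj_mem (fun y hy => hDn s hs y hy) (fun y hy => ?_)⟩
    have h := hDn s⁻¹ (S.inv_mem hs) y hy
    simpa using h
  have hUfn : F.IsFullyNormalized U := fullyNormalized_of_normal F hUS hUn
  have hUr : F.IsReceptive U :=
    saturated_receptive_of_fullyCentralized hS hF (saturated_fullyNormalized hS hF hUfn).1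
  obtain ⟨f', hf', hf'f⟩ := receptive_extend' hUr hf himg
  have hDle : U ⊔ centralizerIn S U ≤ extSub S U f := sup_le (le_extSub hf) (centralizerIn_le_extSub hf)
  have hf'D : Mor F (U ⊔ centralizerIn S U) f' := hf'.restrict hDle
  have hf'U : Mor F U f' := hf'D.restrict le_sup_left
  have himgU : imgS U f' = U := (Mor.imgS_congr hf'U hf'f).trans himg
  have hf'C : Mor F (centralizerIn S U) f' := hf'D.restrict le_sup_right
  have himgC : imgS (centralizerIn S U) f' ≤ centralizerIn S U := by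
    intro y hy
    obtain ⟨c, hc, rfl⟩ := hf'C.mem_imgS.1 hy
    obtain ⟨hcS, hcU⟩ := mem_centralizerIn_iff.1 hc
    rw [mem_centralizerIn_iff]
    refine ⟨hf'C.mem hc, fun u hu => ?_⟩
    rw [← himgU] at hu
    obtain ⟨u₀, hu₀, rfl⟩ := hf'U.mem_imgS.1 hu
    rw [← hf'D.map_mul (Subgroup.mem_sup_left hu₀) (Subgroup.mem_sup_right hc),
      ← hf'D.map_mul (Subgroup.mem_sup_right hc) (Subgroup.mem_sup_left hu₀), hcU u₀ hu₀]
  haveI : Finite (U ⊔ centralizerIn S U : Subgroup Ω) := finite_of_le hDS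
  have himgD : imgS (U ⊔ centralizerIn S U) f' = U ⊔ centralizerIn S U := by
    refine imgS_eq_of_maps hf'D (fun y hy => ?_)
    have h1 := hf'D.mem_imgS_of_mem hy
    rw [hf'D.imgS_sup, himgU] at h1
    exact (sup_le_sup le_rfl himgC) h1
  have key := aut_fixes_of_model3 hS hW2 hWZ hF hfree hDfn hDc hloc hzS hzZ hxS hxZ (by rw [hND]; exact hW)
    f' hf'D himgD
  rw [← hf'f x hxU]
  exact key

end Cfsg.Agent.H90
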