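import Mathlib
import Cfsg.Prelude.Def_FusionSystem
import Cfsg.Agent.H86.WModel2
import Cfsg.Agent.H90.GlModel
import Cfsg.Agent.H90.X.ModelNorm
import Cfsg.Agent.H86.PredSys

set_option autoImplicit false
set_option maxHeartbeats 800000

/-!
Control of weak closure of elements in `H`-free saturated fusion systems, for a local hypothesis only
required for finite groups not involving `H` (variant of helper86's `WClosure2`).
-/

namespace Cfsg.Agent.H90

open Cfsg Cfsg.FusionSystem Cfsg.Agent.H86

universe u

variable {Ω : Type u} [Group Ω]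

theorem wc_main3 {p : ℕ} [Fact p.Prime]
    {W : ∀ (Q : Type u) [Group Q], Subgroup Q}
    (hW2 : ∀ (Q R : Type u) [Group Q] [Group R] [Finite Q], IsPGroup p Q →
      ∀ φ : Q ≃* R, (W Q).map φ.toMonoidHom = W R)
    (hWZ : ∀ (Q : Type u) [Group Q] [Finite Q], IsPGroup p Q → Subgroup.center Q ≤ W Q)
    {H : Type*} [Group H] {z : Ω} :
    ∀ (n : ℕ) (S : Subgroup Ω) [Finite S], Nat.card S = n → IsPGroup p S →
      ∀ F : FusionSystem S, F.IsSaturated p → F.IsSectionFree p H → z ∈ S → (∀ s ∈ S, s * z = z * s) →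
      ∀ x ∈ S, LocHypF p W H z x → (∀ s ∈ S, s * x = x * s) →
        (∀ g, Mor F (WS W S) g → imgS (WS W S) g = WS W S → g x = x) →
        ∀ (P : Subgroup Ω) (f : Ω → Ω), Mor F P f → x ∈ P → f x = x := by
  intro n
  induction n using Nat.strong_induction_on with
  | _ n ih =>
  intro S _ hn hS F hF hfree hzS hzZ x hxS hloc hxZ hWS
  -- the chain step
  have chain : ∀ P : Subgroup Ω, WGood W F P → x ∈ P →
      ∀ g, Mor F (WS W P) g → imgS (WS W P) g = WS W P → g x = x := by
    intro P hP
    induction hP with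
    | top => intro _; exact hWS
    | step P hPS hfn hgood ih' =>
      intro hxP g hg himg
      haveI hfinP : Finite P := finite_of_le hPS
      have hPp : IsPGroup p P := hS.to_le hPS
      have hxU : x ∈ WS W P := center_mem_WS hWZ hPp hxP (fun y hy => hxZ y (hPS hy))
      have hPN : P ≤ normalizerIn S (WS W P) := le_normalizerIn_WS hW2 hPp hPS
      have ih'' := ih' (hPN hxP)
      by_cases hN : normalizerIn S (WS W P) = S
      · rw [hN] at ih''
        have hUn : ∀ s ∈ S, ∀ y ∈ WS W P, s * y * s⁻¹ ∈ WS W P := by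
          intro s hs y hy
          have hs' : s ∈ normalizerIn S (WS W P) := by rw [hN]; exact hs
          exact conj_mem_of_mem_normalizer (mem_normalizerIn_iff.1 hs').2 hy
        exact aut_fixes_of_normal3 hS hW2 hWZ hF hfree ((WS_le W P).trans hPS) hUn hloc hzS hzZ hxS hxZ ih'' g hg himg hxU
      · have hP'S : normalizerIn S (WS W P) ≤ S := inf_le_left
        have hlt : Nat.card (normalizerIn S (WS W P)) < n := by
          rw [← hn]
          exact card_lt_card_of_lt (lt_of_le_of_ne hP'S hN)
        haveI hfinP' : Finite (normalizerIn S (WS W P)) := finite_of_le hP'S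
        have hF' : F.IsNormalizerSystem (WS W P) (Cfsg.Agent.H89.normalizerSystem F (WS W P) hfn.1) :=
          Cfsg.Agent.H89.normalizerSystem_isNormalizerSystem F _ hfn.1
        have hF'sat := Cfsg.Agent.H88.normalizerSystem_saturated hS hF hfn _ hF'
        refine ih (Nat.card (normalizerIn S (WS W P))) hlt (normalizerIn S (WS W P)) rfl
          (hS.to_le hP'S) (Cfsg.Agent.H89.normalizerSystem F (WS W P) hfn.1) hF'sat
          (Cfsg.Agent.H90.X.MS.normalizer_sectionFree hS hF hfree hfn hF') ?_
          (fun s hs => hzZ s (hP'S hs)) x (hPN hxP) hloc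
          (fun s hs => hxZ s (hP'S hs)) ?_ (WS W P) g ?_ hxU
        · rw [mem_normalizerIn_iff]
          refine ⟨hzS, mem_normalizer_of_forall_conj_mem (fun y hy => ?_) (fun y hy => ?_)⟩
          · have h1 := hzZ y (((WS_le W P).trans hPS) hy)
            have h2 : z * y * z⁻¹ = y := by rw [← h1]; group
            rw [h2]; exact hy
          · have h1 := hzZ y (((WS_le W P).trans hPS) hy)
            have h2 : z⁻¹ * y * z = y := by rw [mul_assoc, h1]; group
            rw [h2]; exact hy
        · intro g' hg' himg'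
          have hg'F : Mor F (WS W (normalizerIn S (WS W P))) g' := by
            obtain ⟨-, -, f', hf', hf'g, -⟩ := (Cfsg.Agent.H88.mor_normalizerSystem_iff hF').1 hg'
            exact (hf'.restrict le_sup_left).congr hf'g
          exact ih'' g' hg'F himg'
        · rw [Cfsg.Agent.H88.mor_normalizerSystem_iff hF']
          refine ⟨(WS_le W P).trans hPN, fun y hy => ?_, g, ?_, fun _ _ => rfl, himg⟩
          · have h1 : g y ∈ imgS (WS W P) g := hg.mem_imgS_of_mem hy
            rw [himg] at h1
            exact hPN (WS_le W P h1)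
          · rw [sup_idem]
            exact hg
  -- the predicate
  have hfixgood : ∀ (P : Subgroup Ω) (f : Ω → Ω), Mor F P f → x ∈ P → f x = x →
      ∀ y ∈ P, f y = x ↔ y = x := by
    intro P f hf hxP hfx y hy
    constructor
    · intro h
      exact hf.injOn hy hxP (h.trans hfx.symm)
    · rintro rfl
      exact hfx
  have hcongr : ∀ (P : Subgroup Ω) (f g : Ω → Ω), Mor F P f → (∀ y ∈ P, f y = g y) →
      (∀ y ∈ P, f y = x ↔ y = x) → ∀ y ∈ P, g y = x ↔ y = x := by
    intro P f g _ hfg hgood y hy
    rw [← hfg y hy]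
    exact hgood y hy
  have hconj : ∀ (P : Subgroup Ω) (g : Ω), P ≤ S → g ∈ S → ∀ y ∈ P, g * y * g⁻¹ = x ↔ y = x := by
    intro P g _ hg y _
    have hgx : g * x * g⁻¹ = x := by rw [hxZ g hg]; group
    constructor
    · intro h
      have h1 : g * y * g⁻¹ = g * x * g⁻¹ := h.trans hgx.symm
      exact mul_left_cancel (mul_right_cancel h1)
    · rintro rfl
      exact hgx
  have hcomp : ∀ (P Q : Subgroup Ω) (f g : Ω → Ω), Mor F P f → Mor F Q g → (∀ y ∈ P, f y ∈ Q) →
      (∀ y ∈ P, f y = x ↔ y = x) → (∀ y ∈ Q, g y = x ↔ y = x) → ∀ y ∈ P, (g ∘ f) y = x ↔ y = x := by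
    intro P Q f g _ _ hmaps hgf hgg y hy
    exact (hgg (f y) (hmaps y hy)).trans (hgf y hy)
  have hinv : ∀ (P : Subgroup Ω) (f : Ω → Ω), Mor F P f → (∀ y ∈ P, f y = x ↔ y = x) →
      ∀ z ∈ imgS P f, invOn P f z = x ↔ z = x := by
    intro P f hf hgood z hz
    obtain ⟨y, hy, rfl⟩ := hf.mem_imgS.1 hz
    rw [invOn_apply hf.injOn hy]
    exact (hgood y hy).symm
  -- downward induction on the essential subgroups
  have claim : ∀ (k : ℕ) (R : Subgroup Ω), (R = S ∨ F.IsEssential p R) → Nat.card S - Nat.card R = k →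
      ∀ α ∈ F.autGroup R, ∀ y ∈ R, autFun R α y = x ↔ y = x := by
    intro k
    induction k using Nat.strong_induction_on with
    | _ k ihk =>
    intro R hR hk α hα
    have hRS : R ≤ S := by
      rcases hR with rfl | hess
      · exact le_rfl
      · exact hess.1.1
    have hαM := (mem_autGroup_iff hRS α).1 hα
    have hxR : x ∈ R := by
      rcases hR with rfl | hess
      · exact hxS
      · refine hess.1.2 R (isConj_refl F hRS) ?_
        rw [mem_centralizerIn_iff]
        exact ⟨hxS, fun y hy => hxZ y (hRS hy)⟩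
    refine hfixgood R _ hαM hxR ?_
    by_cases hReq : R = S
    · subst hReq
      have h1 : Mor F (WS W R) (autFun R α) := hαM.restrict (WS_le W R)
      have h2 : imgS (WS W R) (autFun R α) = WS W R := WS_aut hW2 hS hαM (imgS_autFun hαM)
      exact hWS _ h1 h2
    · have hess : F.IsEssential p R := by
        rcases hR with h | h
        · exact absurd h hReq
        · exact h
      have hRlt : R < S := lt_of_le_of_ne hRS hReq
      have hNS : normalizerIn S R ≤ S := inf_le_left
      haveI hfinN : Finite (normalizerIn S R) := finite_of_le hNS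
      haveI hfinR : Finite R := finite_of_le hRS
      have hcardN : Nat.card R < Nat.card (normalizerIn S R) := card_lt_card_of_lt (lt_normalizerIn hS hRlt)
      have hRN : R ≤ normalizerIn S R := le_normalizerIn hRS
      -- larger maps are good
      have IH : ∀ (P : Subgroup Ω) (f : Ω → Ω), Mor F P f → Nat.card R + 1 ≤ Nat.card P →
          ∀ y ∈ P, f y = x ↔ y = x := by
        refine alperin_pred hS hF (fun P f => ∀ y ∈ P, f y = x ↔ y = x) hcongr hconj hcomp hinv
          (Nat.card R + 1) ?_
        intro R' hR' hcard α' hα'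
        have hR'S : R' ≤ S := by
          rcases hR' with rfl | hess'
          · exact le_rfl
          · exact hess'.1.1
        have h1 : Nat.card R' ≤ Nat.card S := Subgroup.card_le_of_le hR'S
        exact ihk (Nat.card S - Nat.card R') (by omega) R' hR' rfl α' hα'
      obtain ⟨ψ, hψ, hgoodψ⟩ := exists_wgood (W := W) hS hW2 hF (normalizerIn S R) hNS
      have hψR : Mor F R ψ := hψ.restrict hRN
      obtain ⟨hQfn, hNQ⟩ := fullyNormalized_imgS hess.2.1 hψ
      have hQc : F.IsCentric (imgS R ψ) :=
        ⟨hQfn.1, fun Q' hQ' => hess.1.2 Q' (isConj_trans (isConj_iff.2 ⟨ψ, hψR, rfl⟩) hQ')⟩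
      have hxN : x ∈ normalizerIn S R := hRN hxR
      have hψx : ψ x = x := (IH _ ψ hψ (by omega) x hxN).2 rfl
      have hx' : x ∈ imgS (normalizerIn S R) ψ := hψ.mem_imgS.2 ⟨x, hxN, hψx⟩
      have hchain := chain _ hgoodψ hx'
      have hmodel := aut_fixes_of_model3 hS hW2 hWZ hF hfree hQfn hQc hloc hzS hzZ hxS hxZ (by rw [hNQ]; exact hchain)
      have hinvM : Mor F (imgS R ψ) (invOn R ψ) := hψR.inv
      have h1 : Mor F (imgS R ψ) (autFun R α ∘ invOn R ψ) :=
        hinvM.comp hαM (fun y hy => hψR.invOn_mem hy)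
      have h2 : Mor F (imgS R ψ) (ψ ∘ (autFun R α ∘ invOn R ψ)) :=
        h1.comp hψR (fun y hy => autFun_mem α (hψR.invOn_mem hy))
      haveI : Finite (imgS R ψ) := finite_of_le hψR.imgS_le
      have himg : imgS (imgS R ψ) (ψ ∘ (autFun R α ∘ invOn R ψ)) = imgS R ψ :=
        imgS_eq_of_maps h2 (fun y hy => hψR.mem_imgS_of_mem (autFun_mem α (hψR.invOn_mem hy)))
      have h3 : ψ (autFun R α (invOn R ψ x)) = x := hmodel _ h2 himg
      have h4 : invOn R ψ x = x := by
        have := invOn_apply hψR.injOn hxR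
        rwa [hψx] at this
      rw [h4] at h3
      exact hψ.injOn (hRN (autFun_mem α hxR)) hxN (h3.trans hψx.symm)
  -- conclusion
  intro P f hf hxP
  have key := alperin_pred hS hF (fun P f => ∀ y ∈ P, f y = x ↔ y = x) hcongr hconj hcomp hinv 0
    (fun R hR _ α hα => claim _ R hR rfl α hα) P f hf (Nat.zero_le _)
  exact (key x hxP).2 rfl

end Cfsg.Agent.H90
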