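import Mathlib
import Cfsg.Prelude.Def_FusionSystem
import Cfsg.Prelude.Def_ConjugacyFunctors
import Cfsg.Agent.H90.CTMain
import Cfsg.Agent.H40.KInfD

set_option autoImplicit false
set_option maxHeartbeats 1600000

/-!
For `p ≥ 5`, the lower K-infinity functor satisfies the local hypothesis of control of transfer;
consequently a saturated fusion system over a nontrivial `p`-group `S` all of whose automorphisms
of `S` are inner has a proper focal subgroup.
-/

namespace Cfsg.Agent.H90

open Cfsg Cfsg.FusionSystem Cfsg.Agent.H86 Cfsg.Agent.H88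
open scoped commutatorElement

universe u

/-- The lower K-infinity functor satisfies the local hypothesis of control of transfer. -/
theorem ctHyp_kInfLower {p : ℕ} [Fact p.Prime] (hp : 5 ≤ p) : CTHyp.{u} p kInfLower := by
  intro G _ _ P _
  have h := Cfsg.Agent.H40.KInf.controlsTransfer_kInfLower hp G
  rw [Cfsg.Agent.H39.controlsTransferIn_iff] at h
  obtain ⟨T', hT', hct⟩ := h
  have hct' := Cfsg.Agent.H39.CT.of_sylIn
    (Cfsg.Agent.H40.Sec.isConjugacyFunctor_induced Cfsg.Agent.H40.KInf.isCharPFunctor_kInfLower)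
    hct hT' (Cfsg.Agent.H39.sylIn_top P)
  unfold Cfsg.Agent.H39.CT at hct'
  simp only [top_inf_eq] at hct'
  have hle : pCore p G ≤ (P : Subgroup G) := Cfsg.Agent.H39.pCore_le_sylow P
  obtain ⟨N, hN⟩ : ∃ N : Subgroup G, N = Subgroup.normalizer
      (((kInfLower ↥(P : Subgroup G)).map (P : Subgroup G).subtype : Subgroup G) : Set G) := ⟨_, rfl⟩
  have hct'' : (P : Subgroup G) ⊓ ⁅(⊤ : Subgroup G), ⊤⁆ = (P : Subgroup G) ⊓ ⁅N, N⁆ := by
    rw [hN]; exact hct'
  rw [← hN]
  have e2 : (commutator ↥N).map N.subtype = ⁅N, N⁆ := by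
    rw [commutator_def, Subgroup.map_commutator, ← MonoidHom.range_eq_map, Subgroup.range_subtype]
  rw [e2, commutator_def]
  calc pCore p G ⊓ ⁅(⊤ : Subgroup G), ⊤⁆ = pCore p G ⊓ ((P : Subgroup G) ⊓ ⁅(⊤ : Subgroup G), ⊤⁆) := by
        rw [← inf_assoc, inf_eq_left.mpr hle]
    _ = pCore p G ⊓ ((P : Subgroup G) ⊓ ⁅N, N⁆) := by rw [hct'']
    _ = pCore p G ⊓ ⁅N, N⁆ := by rw [← inf_assoc, inf_eq_left.mpr hle]

variable {Ω : Type u} [Group Ω] {S : Subgroup Ω}

/-- If `Aut_F(S)` is a `p`-group, every automorphism of `S` in the system is inner. -/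
theorem inner_of_autGroup_pgroup [Finite S] {p : ℕ} [Fact p.Prime] (hS : IsPGroup p S)
    {F : FusionSystem S} (hF : F.IsSaturated p) (haut : IsPGroup p ↥(F.autGroup S)) :
    ∀ f, Mor F S f → ∃ s ∈ S, ∀ x ∈ S, f x = s * x * s⁻¹ := by
  intro f hf
  have hfn : F.IsFullyNormalized S := fullyNormalized_of_normal F le_rfl
    (fun s hs y hy => S.mul_mem (S.mul_mem hs hy) (S.inv_mem hs))
  obtain ⟨-, -, R, hR⟩ := saturated_fullyNormalized hS hF hfn
  have himg : imgS S f = S := imgS_eq_of_maps hf (fun x hx => hf.mem hx)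
  have hα : mkAut hf himg ∈ F.autGroup S := mkAut_mem hf himg
  have hRtop : (⊤ : Subgroup (F.autGroup S)) = (R : Subgroup (F.autGroup S)) :=
    R.is_maximal' (haut.to_subgroup ⊤) le_top
  have h1 : (⟨mkAut hf himg, hα⟩ : F.autGroup S) ∈ (R : Subgroup (F.autGroup S)) := by
    rw [← hRtop]; exact Subgroup.mem_top _
  rw [hR, Subgroup.mem_subgroupOf] at h1
  obtain ⟨g, hg, hgx⟩ := (mem_autInducedBy_iff S S _).1 h1
  refine ⟨g, hg, fun x hx => ?_⟩
  have := hgx ⟨x, hx⟩
  rw [mkAut_apply] at this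
  exact this

/-- A nontrivial finite `p`-group is not perfect. -/
theorem commutator_ne_self_of_pgroup [Finite S] {p : ℕ} [Fact p.Prime] (hS : IsPGroup p S)
    (hne : S ≠ ⊥) : ⁅S, S⁆ ≠ S := by
  intro h
  haveI : Nontrivial ↥S := (Subgroup.nontrivial_iff_ne_bot S).2 hne
  haveI : Group.IsNilpotent ↥S := hS.isNilpotent
  have h1 : commutator ↥S < ⊤ := IsSolvable.commutator_lt_top_of_nontrivial ↥S
  apply ne_of_lt h1
  apply Subgroup.map_injective S.subtype_injective
  rw [commutator_def, Subgroup.map_commutator, ← MonoidHom.range_eq_map, Subgroup.range_subtype]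
  exact h

/-- The main induction: a saturated fusion system over a nontrivial `p`-group, `p ≥ 5`, in which
every automorphism of `S` is inner, has a proper focal subgroup. -/
theorem focal_ne_of_inner {p : ℕ} [Fact p.Prime] (hp : 5 ≤ p) :
    ∀ (n : ℕ) (Ω : Type u) [Group Ω] (S : Subgroup Ω) [Finite S], Nat.card S = n → IsPGroup p S →
      S ≠ ⊥ → ∀ F : FusionSystem S, F.IsSaturated p →
      (∀ f, Mor F S f → ∃ s ∈ S, ∀ x ∈ S, f x = s * x * s⁻¹) → F.focalSubgroup ≠ S := by
  intro n
  induction n using Nat.strong_induction_on with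
  | _ n ih =>
  intro Ω _ S _ hn hS hne F hF hinn hfoc
  classical
  have hW : IsCharPFunctor.{u} p kInfLower := Cfsg.Agent.H40.KInf.isCharPFunctor_kInfLower
  have hW1 := hW.1
  have hW2 := hW.2
  have hmain := ct_main hW1 hW2 (ctHyp_kInfLower hp) _ _ Ω S rfl hS F hF rfl
  obtain ⟨V, hV⟩ : ∃ V : Subgroup Ω, V = WS kInfLower S := ⟨_, rfl⟩
  rw [← hV] at hmain
  have hVS : V ≤ S := by rw [hV]; exact WS_le _ S
  have hVne : V ≠ ⊥ := by rw [hV]; exact WS_ne_bot hW1 hS hne
  have hVn : ∀ s ∈ S, ∀ y ∈ V, s * y * s⁻¹ ∈ V := by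
    intro s hs y hy
    rw [hV] at hy ⊢
    exact WS_conj_mem hW2 hS (Subgroup.le_normalizer hs) hy
  have hnS : nfoc F V = S :=
    le_antisymm ((nfoc_le_focal F V).trans (focal_le_top' F)) (by rw [hfoc] at hmain; exact hmain)
  have hNS : normalizerIn S V = S := by
    apply le_antisymm inf_le_left
    intro s hs
    refine ⟨hs, mem_normalizer_of_forall_conj_mem (fun y hy => hVn s hs y hy) (fun y hy => ?_)⟩
    have h := hVn s⁻¹ (S.inv_mem hs) y hy
    simpa using h
  by_cases hVeq : V = S
  · -- `V = S`: the focal subgroup of the normalizer system is the derived subgroup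
    have hle : nfoc F V ≤ ⁅S, S⁆ := by
      rw [nfoc_le_iff]
      rintro D f ⟨hVD, hDN, hf, -⟩ x hx
      have hDS : D = S := le_antisymm (hDN.trans inf_le_left) (by rw [← hVeq]; exact hVD)
      subst hDS
      obtain ⟨s, hs, hfs⟩ := hinn f hf
      rw [hfs x hx]
      have h1 : ⁅x⁻¹, s⁆ ∈ ⁅D, D⁆ := Subgroup.commutator_mem_commutator (D.inv_mem hx) hs
      have e : ⁅x⁻¹, s⁆ = x⁻¹ * (s * x * s⁻¹) := by
        rw [commutatorElement_def]; group
      rwa [e] at h1
    rw [hnS] at hle
    exact commutator_ne_self_of_pgroup hS hne (le_antisymm (Subgroup.commutator_le_self S) hle)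
  · -- `V < S`: pass to the factor system of the normalizer system by `V`
    have hT'S : normalizerIn S V ≤ S := inf_le_left
    haveI hfinT' : Finite (normalizerIn S V) := finite_of_le hT'S
    have hT'p : IsPGroup p (normalizerIn S V) := hS.to_le hT'S
    have hUfn : F.IsFullyNormalized V := fullyNormalized_of_normal F hVS hVn
    have hEV : F.IsNormalizerSystem V (Cfsg.Agent.H89.normalizerSystem F V hVS) :=
      Cfsg.Agent.H89.normalizerSystem_isNormalizerSystem F V hVS
    obtain ⟨N, hNdef⟩ : ∃ N : FusionSystem (normalizerIn S V),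
        N = Cfsg.Agent.H89.normalizerSystem F V hVS := ⟨_, rfl⟩
    rw [← hNdef] at hEV
    have hNsat : N.IsSaturated p := Cfsg.Agent.H88.normalizerSystem_saturated hS hF hUfn _ hEV
    have hVnorm : N.IsNormal V := Cfsg.Agent.H88.normalizerSystem_isNormal hVS hEV
    have hVcl : N.StronglyClosed V := IsNormal.stronglyClosed hVnorm
    have hVT' : V ≤ normalizerIn S V := le_normalizerIn hVS
    haveI hnormal : (V.subgroupOf (normalizerIn S V)).Normal := by
      refine ⟨fun x hx g => ?_⟩
      rw [Subgroup.mem_subgroupOf] at hx ⊢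
      exact hVn g (hT'S g.2) x hx
    obtain ⟨E, hE⟩ := exists_factorSystem N V hVcl
    have hEsat : E.IsSaturated p := factor_saturated hT'p hNsat hVcl hE
    have hS'p : IsPGroup p (⊤ : Subgroup (normalizerIn S V ⧸ V.subgroupOf (normalizerIn S V))) :=
      (hT'p.to_quotient _).to_subgroup ⊤
    haveI : Finite (⊤ : Subgroup (normalizerIn S V ⧸ V.subgroupOf (normalizerIn S V))) :=
      inferInstance
    have hcardT' : Nat.card (normalizerIn S V) = n := by rw [hNS]; exact hn
    have hlt : Nat.card (⊤ : Subgroup (normalizerIn S V ⧸ V.subgroupOf (normalizerIn S V))) < n := by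
      rw [Subgroup.card_top, ← hcardT',
        Subgroup.card_eq_card_quotient_mul_card_subgroup (V.subgroupOf (normalizerIn S V))]
      have h1 : 1 < Nat.card (V.subgroupOf (normalizerIn S V)) := by
        rw [Subgroup.one_lt_card_iff_ne_bot]
        intro hbot
        apply hVne
        rw [eq_bot_iff]
        intro q hq
        have : (⟨q, hVT' hq⟩ : normalizerIn S V) ∈ V.subgroupOf (normalizerIn S V) :=
          Subgroup.mem_subgroupOf.2 hq
        rw [hbot, Subgroup.mem_bot] at this
        rw [Subgroup.mem_bot]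
        exact congrArg Subtype.val this
      have h2 : 0 < Nat.card (normalizerIn S V ⧸ V.subgroupOf (normalizerIn S V)) := Nat.card_pos
      nlinarith
    have htopne : (⊤ : Subgroup (normalizerIn S V ⧸ V.subgroupOf (normalizerIn S V))) ≠ ⊥ := by
      intro htop
      apply hVeq
      apply le_antisymm hVS
      intro s hs
      have hs' : s ∈ normalizerIn S V := by rw [hNS]; exact hs
      have h1 : (QuotientGroup.mk' (V.subgroupOf (normalizerIn S V)) ⟨s, hs'⟩ :
          normalizerIn S V ⧸ V.subgroupOf (normalizerIn S V)) ∈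
          (⊤ : Subgroup (normalizerIn S V ⧸ V.subgroupOf (normalizerIn S V))) := Subgroup.mem_top _
      rw [htop, Subgroup.mem_bot] at h1
      exact (hE.2.1 ⟨s, hs'⟩).1 h1
    -- automorphisms of the top group of the factor system are inner
    have hinnE : ∀ f', Mor E (⊤ : Subgroup (normalizerIn S V ⧸ V.subgroupOf (normalizerIn S V))) f' →
        ∃ s' ∈ (⊤ : Subgroup (normalizerIn S V ⧸ V.subgroupOf (normalizerIn S V))),
          ∀ x' ∈ (⊤ : Subgroup (normalizerIn S V ⧸ V.subgroupOf (normalizerIn S V))),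
            f' x' = s' * x' * s'⁻¹ := by
      intro f' hf'
      obtain ⟨f, hf, hff'⟩ := factor_lift hE hf'
      have hpre : preimageAlong (QuotientGroup.mk' (V.subgroupOf (normalizerIn S V)))
          (⊤ : Subgroup (normalizerIn S V ⧸ V.subgroupOf (normalizerIn S V))) = normalizerIn S V := by
        ext x
        rw [mem_preimageAlong_iff]
        exact ⟨fun h => h.1, fun h => ⟨h, Subgroup.mem_top _⟩⟩
      rw [hpre] at hf hff'
      obtain ⟨-, hmaps, f₁, hf₁, hf₁f, -⟩ := (Cfsg.Agent.H88.mor_normalizerSystem_iff hEV).1 hf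
      have hsup : normalizerIn S V ⊔ V = S := by rw [hNS]; exact sup_eq_left.2 hVS
      rw [hsup] at hf₁
      obtain ⟨s, hs, hfs⟩ := hinn f₁ hf₁
      have hs' : s ∈ normalizerIn S V := by rw [hNS]; exact hs
      refine ⟨tot (QuotientGroup.mk' (V.subgroupOf (normalizerIn S V))) s, Subgroup.mem_top _,
        fun x' hx' => ?_⟩
      obtain ⟨x, hx, rfl⟩ := exists_tot_eq hE hx'
      rw [hff' x hx, ← hf₁f x hx, hfs x (hT'S hx), tot_conj _ hs' hx]
    have hIH := ih _ hlt (normalizerIn S V ⧸ V.subgroupOf (normalizerIn S V)) ⊤ rfl hS'p htopne E hEsat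
      hinnE
    apply hIH
    apply le_antisymm (focal_le_top' E)
    intro y hy
    obtain ⟨x, hx, rfl⟩ := exists_tot_eq hE hy
    have hxN : x ∈ N.focalSubgroup := by
      rw [focal_normalizerSystem hVS hEV, hnS]
      exact hT'S hx
    exact (tot_mem_focal hT'p hNsat hVcl hE x hxN).2

/-- **Statement S5252.** -/
theorem focal_lt_of_autGroup_pgroup [Finite S] {p : ℕ} [Fact p.Prime] (hS : IsPGroup p S)
    (F : FusionSystem S) (hF : F.IsSaturated p) (hp : 5 ≤ p) (hS1 : S ≠ ⊥)
    (haut : IsPGroup p ↥(F.autGroup S)) : F.focalSubgroup < S :=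
  lt_of_le_of_ne (focal_le_top' F)
    (focal_ne_of_inner hp _ Ω S rfl hS hS1 F hF (inner_of_autGroup_pgroup hS hF haut))

end Cfsg.Agent.H90
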