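import Mathlib
import Cfsg.Agent.H87.FusIso
import Cfsg.Agent.H87.ModelUnique
import Cfsg.Agent.H87.CentricExt
import Cfsg.Agent.H88.Basic
import Cfsg.Agent.H90.GTModel
import Cfsg.Agent.H90.Model
import Cfsg.Agent.H80.PSolvable
import Cfsg.Agent.H80.SolvPSolv
import Cfsg.Agent.H14.PSolv
import Cfsg.Agent.H73.PSolv
import Cfsg.Agent.H38.HallHigmanPSolv

set_option autoImplicit false
set_option maxHeartbeats 1000000

/-!
Fusion systems of `p`-solvable groups: passing to the quotient by a normal `p'`-subgroup, and the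
conjugation homomorphism of a realizing group onto the automizer of a normal subgroup.
-/

namespace Cfsg.Agent.H90

open Cfsg Cfsg.FusionSystem
open scoped Pointwise

theorem eq_one_of_pow_of_mem_coprime {G : Type*} [Group G] {p : ℕ} {K : Subgroup G}
    (hK : (Nat.card K).Coprime p) {x : G} (hxK : x ∈ K) {k : ℕ} (hx : x ^ p ^ k = 1) : x = 1 := by
  have h1 : orderOf x ∣ p ^ k := orderOf_dvd_of_pow_eq_one hx
  have h2 : orderOf x ∣ Nat.card K := by
    have := orderOf_dvd_natCard (⟨x, hxK⟩ : K)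
    rwa [Subgroup.orderOf_mk] at this
  have h3 : orderOf x ∣ 1 := by
    have := Nat.dvd_gcd h2 h1
    rwa [Nat.Coprime.pow_right k hK] at this
  exact orderOf_eq_one_iff.1 (Nat.dvd_one.1 h3)

/-- `p`-subgroups with the same image modulo a normal `p'`-subgroup `K`: an element of `K`
conjugates the first into the second. -/
theorem exists_conj_of_map_mk_eq {G : Type*} [Group G] [Finite G] {p : ℕ} [Fact p.Prime]
    (K : Subgroup G) [K.Normal] (hK : (Nat.card K).Coprime p) {A B : Subgroup G}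
    (hA : IsPGroup p A) (hB : IsPGroup p B)
    (h : A.map (QuotientGroup.mk' K) = B.map (QuotientGroup.mk' K)) :
    ∃ k ∈ K, ∀ a ∈ A, k * a * k⁻¹ ∈ B := by
  have hAH : A ≤ B ⊔ K := by
    have h1 : A ≤ (A.map (QuotientGroup.mk' K)).comap (QuotientGroup.mk' K) := Subgroup.le_comap_map _ _
    rw [h, Subgroup.comap_map_eq, QuotientGroup.ker_mk'] at h1
    exact h1
  have hBH : B ≤ B ⊔ K := le_sup_left
  obtain ⟨Q₁, hQ₁⟩ := (hB.comap_subtype (K := B ⊔ K)).exists_le_sylow
  obtain ⟨Q₂, hQ₂⟩ := (hA.comap_subtype (K := B ⊔ K)).exists_le_sylow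
  -- `Q₁` is `B`
  have hQ₁B : ∀ x : ↥(B ⊔ K), x ∈ Q₁ → (x : G) ∈ B := by
    intro x hx
    obtain ⟨b, hb, k, hk, hbk⟩ := Subgroup.mem_sup_of_normal_right.1 x.2
    have hbQ : (⟨b, hBH hb⟩ : ↥(B ⊔ K)) ∈ Q₁ := hQ₁ (Subgroup.mem_subgroupOf.2 hb)
    have hkQ : (⟨b, hBH hb⟩ : ↥(B ⊔ K))⁻¹ * x ∈ Q₁ := Q₁.1.mul_mem (Q₁.1.inv_mem hbQ) hx
    obtain ⟨n, hn⟩ := Q₁.2 ⟨_, hkQ⟩
    have hk' : b⁻¹ * (x : G) = k := by rw [← hbk]; group
    have hn' : k ^ p ^ n = 1 := by
      have := congrArg (fun z : Q₁ => ((z : ↥(B ⊔ K)) : G)) hn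
      simp only [Subgroup.coe_pow, Subgroup.coe_mul, Subgroup.coe_inv, Subgroup.coe_one] at this
      rw [← hk']
      exact this
    have hk1 : k = 1 := eq_one_of_pow_of_mem_coprime hK hk hn'
    rw [← hbk, hk1, mul_one]
    exact hb
  obtain ⟨y, hy⟩ := MulAction.exists_smul_eq ↥(B ⊔ K) Q₂ Q₁
  obtain ⟨b, hb, k, hk, hbk⟩ := Subgroup.mem_sup_of_normal_right.1 y.2
  refine ⟨k, hk, fun a ha => ?_⟩
  have haQ : (⟨a, hAH ha⟩ : ↥(B ⊔ K)) ∈ Q₂ := hQ₂ (Subgroup.mem_subgroupOf.2 ha)
  have h1 : y * ⟨a, hAH ha⟩ * y⁻¹ ∈ (Q₁ : Subgroup ↥(B ⊔ K)) := by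
    rw [← hy, Sylow.coe_subgroup_smul]
    exact ⟨_, haQ, rfl⟩
  have h2 := hQ₁B _ h1
  simp only [Subgroup.coe_mul, Subgroup.coe_inv] at h2
  have e : k * a * k⁻¹ = b⁻¹ * ((y : G) * a * (y : G)⁻¹) * b := by rw [← hbk]; group
  rw [e]
  exact B.mul_mem (B.mul_mem (B.inv_mem hb) h2) hb

variable {Ω : Type*} [Group Ω] {S : Subgroup Ω}

/-- A group realizing `F` on a `p`-group still realizes it modulo a normal `p'`-subgroup. -/
theorem isRealizedBy_quotient {F : FusionSystem S} {p : ℕ} [Fact p.Prime] (hS : IsPGroup p S)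
    {G : Type*} [Group G] [Finite G] {ι : S →* G} (h : F.IsRealizedBy ι) (K : Subgroup G)
    [K.Normal] (hK : (Nat.card K).Coprime p) :
    F.IsRealizedBy ((QuotientGroup.mk' K).comp ι) := by
  have hker : ∀ s : S, ι s ∈ K → s = 1 := by
    intro s hs
    obtain ⟨k, hk⟩ := hS s
    have h1 : ι s = 1 := eq_one_of_pow_of_mem_coprime hK hs (by rw [← map_pow, hk, map_one])
    exact h.1 (by rw [h1, map_one])
  refine ⟨?_, fun P hP φ hφ => ?_⟩
  · intro s t hst
    have h1 : ι (s⁻¹ * t) ∈ K := by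
      rw [map_mul, map_inv]
      exact QuotientGroup.eq.1 hst
    exact inv_mul_eq_one.1 (hker _ h1)
  · rw [h.2 P hP φ hφ]
    constructor
    · rintro ⟨g, hg⟩
      refine ⟨QuotientGroup.mk' K g, fun x => ?_⟩
      show QuotientGroup.mk' K (ι _) = _
      rw [hg x]
      simp
    · rintro ⟨gbar, hg⟩
      obtain ⟨g, rfl⟩ := QuotientGroup.mk'_surjective K gbar
      have hPp : IsPGroup p P := hS.to_le hP
      obtain ⟨A, hAdef⟩ : ∃ A : Subgroup G, A =
          ((MulAut.conj g).toMonoidHom.comp (ι.comp (Subgroup.inclusion hP))).range := ⟨_, rfl⟩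
      obtain ⟨B, hBdef⟩ : ∃ B : Subgroup G, B = (ι.comp (φ.codRestrict S hφ)).range := ⟨_, rfl⟩
      have hA : IsPGroup p A := by
        rw [hAdef]
        exact hPp.of_surjective _ (MonoidHom.rangeRestrict_surjective _)
      have hB : IsPGroup p B := by
        rw [hBdef]
        exact hPp.of_surjective _ (MonoidHom.rangeRestrict_surjective _)
      have hg' : ∀ x : P, QuotientGroup.mk' K (ι (φ.codRestrict S hφ x)) =
          QuotientGroup.mk' K (g * ι (Subgroup.inclusion hP x) * g⁻¹) := by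
        intro x
        have := hg x
        simp only [MonoidHom.comp_apply] at this
        rw [map_mul, map_mul, map_inv]
        exact this
      have hAB : A.map (QuotientGroup.mk' K) = B.map (QuotientGroup.mk' K) := by
        rw [hAdef, hBdef]
        ext z
        constructor
        · rintro ⟨_, ⟨x, rfl⟩, rfl⟩
          exact ⟨_, ⟨x, rfl⟩, hg' x⟩
        · rintro ⟨_, ⟨x, rfl⟩, rfl⟩
          exact ⟨_, ⟨x, rfl⟩, (hg' x).symm⟩
      obtain ⟨k, hkK, hk⟩ := exists_conj_of_map_mk_eq K hK hA hB hAB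
      refine ⟨k * g, fun x => ?_⟩
      have hb2 : k * (g * ι (Subgroup.inclusion hP x) * g⁻¹) * k⁻¹ ∈ B :=
        hk _ (by rw [hAdef]; exact ⟨x, rfl⟩)
      rw [hBdef] at hb2
      obtain ⟨x', hx'⟩ := hb2
      simp only [MonoidHom.comp_apply] at hx'
      have hK' : ι ((φ.codRestrict S hφ x)⁻¹ * φ.codRestrict S hφ x') ∈ K := by
        rw [map_mul, map_inv]
        apply QuotientGroup.eq.1
        have e1 := hg' x
        have e2 : QuotientGroup.mk' K (ι (φ.codRestrict S hφ x')) =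
            QuotientGroup.mk' K (g * ι (Subgroup.inclusion hP x) * g⁻¹) := by
          rw [hx']
          have hk1 : QuotientGroup.mk' K k = 1 := (QuotientGroup.eq_one_iff k).2 hkK
          rw [map_mul, map_mul, map_inv, hk1]
          simp
        exact e1.trans e2.symm
      have h3 := hker _ hK'
      have h4 : φ.codRestrict S hφ x = φ.codRestrict S hφ x' := inv_mul_eq_one.1 h3
      have h5 : ι ⟨φ x, hφ x⟩ = ι (φ.codRestrict S hφ x') := by rw [← h4]; rfl
      rw [h5, hx']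
      show _ = k * g * ι (Subgroup.inclusion hP x) * (k * g)⁻¹
      group

theorem exists_sylow_quotient_range {p : ℕ} [Fact p.Prime] {G : Type*} [Group G] [Finite G]
    {ι : S →* G} (T : Sylow p G) (hT : (T : Subgroup G) = ι.range) (K : Subgroup G) [K.Normal] :
    ∃ T' : Sylow p (G ⧸ K), (T' : Subgroup (G ⧸ K)) = ((QuotientGroup.mk' K).comp ι).range :=
  ⟨T.mapSurjective (QuotientGroup.mk'_surjective K), by
    rw [Sylow.coe_mapSurjective, ← MonoidHom.map_range, ← hT]⟩

/-- Conjugation in a group realizing `F` induces a surjective homomorphism onto `Aut_F(R)` for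
every `R ≤ S` with normal image, with kernel the centralizer of the image. -/
theorem exists_autHom {F : FusionSystem S} {G : Type*} [Group G] {ι : S →* G}
    (hreal : F.IsRealizedBy ι) {R : Subgroup Ω} (hR : R ≤ S) [Finite R]
    (hn : ((R.subgroupOf S).map ι).Normal) :
    ∃ ψ : G →* F.autGroup R, Function.Surjective ψ ∧
      ψ.ker ≤ Subgroup.centralizer (((R.subgroupOf S).map ι : Subgroup G) : Set G) ∧
      ∀ (g : G) (x : R), ι (Subgroup.inclusion hR ((ψ g : MulAut R) x)) =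
        g * ι (Subgroup.inclusion hR x) * g⁻¹ := by
  classical
  have hinj : Function.Injective ι := hreal.1
  have hex : ∀ g : G, ∃ α : MulAut R, α ∈ F.autGroup R ∧
      ∀ x : R, ι (Subgroup.inclusion hR (α x)) = g * ι (Subgroup.inclusion hR x) * g⁻¹ := by
    intro g
    refine exists_aut_of_realized hreal hR g (fun x => ?_)
    have hx : ι (Subgroup.inclusion hR x) ∈ (R.subgroupOf S).map ι :=
      ⟨_, Subgroup.mem_subgroupOf.2 x.2, rfl⟩
    obtain ⟨s, hs, hs'⟩ := hn.conj_mem _ hx g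
    exact ⟨⟨s, Subgroup.mem_subgroupOf.1 hs⟩, hs'⟩
  choose c hc hc' using hex
  have hext : ∀ α β : MulAut R, (∀ x : R, ι (Subgroup.inclusion hR (α x)) =
      ι (Subgroup.inclusion hR (β x))) → α = β := by
    intro α β h
    ext x
    have := hinj (h x)
    exact congrArg (fun z : S => (z : Ω)) this
  have hmul : ∀ g h : G, c (g * h) = c g * c h := by
    intro g h
    apply hext
    intro x
    rw [hc', MulAut.mul_apply, hc', hc']
    group
  refine ⟨MonoidHom.mk' (fun g => ⟨c g, hc g⟩) (fun g h => Subtype.ext (hmul g h)), ?_, ?_, ?_⟩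
  · rintro ⟨α, hα⟩
    obtain ⟨g, hg⟩ := exists_conj_of_mem_autGroup hreal hR hα
    refine ⟨g, Subtype.ext ?_⟩
    apply hext
    intro x
    show ι (Subgroup.inclusion hR (c g x)) = _
    rw [hc', hg]
  · intro g hg
    rw [MonoidHom.mem_ker] at hg
    have hg1 : c g = 1 := congrArg Subtype.val hg
    rw [Subgroup.mem_centralizer_iff]
    rintro _ ⟨s, hs, rfl⟩
    have h1 := hc' g ⟨s, Subgroup.mem_subgroupOf.1 hs⟩
    rw [hg1] at h1
    have h2 : Subgroup.inclusion hR ⟨(s : Ω), Subgroup.mem_subgroupOf.1 hs⟩ = s := Subtype.ext rfl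
    rw [MulAut.one_apply, h2] at h1
    conv_lhs => rw [h1]
    group
  · intro g x
    exact hc' g x

end Cfsg.Agent.H90
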