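import Mathlib

set_option autoImplicit false
set_option maxHeartbeats 1000000

/-!
Transfer splitting: for a finite group `G` acting on a commutative group `M` by automorphisms and a
subgroup `H` whose index is invertible on `M`, the fixed points of `G` form a direct factor of the
fixed points of `H`.
-/

namespace Cfsg.Agent.H90

theorem act_one_eq {G M : Type*} [CommGroup M] (a : G → M → M)
    (ha : ∀ g x y, a g (x * y) = a g x * a g y) (g : G) : a g 1 = 1 := by
  have h := ha g 1 1
  rw [mul_one] at h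
  exact (mul_eq_left.1 h.symm)

section
variable {G M : Type*} [Group G] [Finite G] [CommGroup M]

/-- The transfer map `v ↦ ∏_{c ∈ G/H} c·v` (meaningful on `H`-fixed points). -/
noncomputable def trMap (H : Subgroup G) (a : G → M → M) (v : M) : M :=
  haveI := Fintype.ofFinite (G ⧸ H)
  ∏ c : G ⧸ H, a (Quotient.out c) v

theorem trMap_mul (H : Subgroup G) (a : G → M → M) (ha : ∀ g x y, a g (x * y) = a g x * a g y) (v w : M) :
    trMap H a (v * w) = trMap H a v * trMap H a w := by
  letI := Fintype.ofFinite (G ⧸ H)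
  show ∏ c : G ⧸ H, a (Quotient.out c) (v * w) = (∏ c : G ⧸ H, a (Quotient.out c) v) * ∏ c : G ⧸ H, a (Quotient.out c) w
  rw [← Finset.prod_mul_distrib]
  exact Finset.prod_congr rfl (fun c _ => ha _ v w)

theorem trMap_fixed (H : Subgroup G) (a : G → M → M) {v : M} (hv : ∀ g, a g v = v) :
    trMap H a v = v ^ H.index := by
  letI := Fintype.ofFinite (G ⧸ H)
  show ∏ c : G ⧸ H, a (Quotient.out c) v = v ^ H.index
  have h0 : ∀ c : G ⧸ H, a (Quotient.out c) v = v := fun c => hv _
  simp only [h0, Finset.prod_const, Finset.card_univ]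
  rw [Subgroup.index, Nat.card_eq_fintype_card]


theorem trMap_invariant (H : Subgroup G) (a : G → M → M) (ha_mul : ∀ g x y, a g (x * y) = a g x * a g y)
    (ha_comp : ∀ g h x, a (g * h) x = a g (a h x)) {v : M} (hv : ∀ h ∈ H, a h v = v) (g : G) :
    a g (trMap H a v) = trMap H a v := by
  letI := Fintype.ofFinite (G ⧸ H)
  show a g (∏ c : G ⧸ H, a (Quotient.out c) v) = ∏ c : G ⧸ H, a (Quotient.out c) v
  let aHom : M →* M := { toFun := a g, map_one' := act_one_eq a ha_mul g, map_mul' := ha_mul g }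
  have h1 : a g (∏ c : G ⧸ H, a (Quotient.out c) v) = ∏ c : G ⧸ H, a g (a (Quotient.out c) v) :=
    map_prod aHom _ _
  rw [h1]
  have h2 : ∀ c : G ⧸ H, a g (a (Quotient.out c) v) = a (Quotient.out (g • c)) v := by
    intro c
    rw [← ha_comp]
    have hc : ((Quotient.out (g • c) : G) : G ⧸ H) = ((g * Quotient.out c : G) : G ⧸ H) := by
      rw [QuotientGroup.out_eq']
      conv_lhs => rw [← QuotientGroup.out_eq' c]
      rfl
    have hmem : (Quotient.out (g • c))⁻¹ * (g * Quotient.out c) ∈ H := QuotientGroup.eq.1 hc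
    have e : g * Quotient.out c = Quotient.out (g • c) * ((Quotient.out (g • c))⁻¹ * (g * Quotient.out c)) := by
      group
    rw [e, ha_comp, hv _ hmem]
  simp only [h2]
  exact Equiv.prod_comp (MulAction.toPerm g) (fun c' : G ⧸ H => a (Quotient.out c') v)

/-- The fixed points of `G` are a direct factor of the fixed points of `H` when the index of `H`
is invertible on `M`. -/
theorem exists_complement_fixed (H : Subgroup G) (a : G → M → M)
    (ha_mul : ∀ g x y, a g (x * y) = a g x * a g y) (ha_comp : ∀ g h x, a (g * h) x = a g (a h x))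
    (m : ℕ) (hm : ∀ x : M, x ^ (H.index * m) = x)
    (MG MH : Subgroup M) (hMG : ∀ x, x ∈ MG ↔ ∀ g, a g x = x) (hMH : ∀ x, x ∈ MH ↔ ∀ h ∈ H, a h x = x) :
    ∃ K : Subgroup M, K ≤ MH ∧ MG ⊓ K = ⊥ ∧ MG ⊔ K = MH := by
  have htr1 : trMap H a 1 = 1 := by
    have h := trMap_mul H a ha_mul 1 1
    rw [mul_one] at h
    exact mul_eq_left.1 h.symm
  let τ : M →* M := { toFun := trMap H a, map_one' := htr1, map_mul' := trMap_mul H a ha_mul }
  have hτ : ∀ v, τ v = trMap H a v := fun v => rfl
  have hGH : MG ≤ MH := fun x hx => (hMH x).2 (fun h _ => (hMG x).1 hx h)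
  refine ⟨MH ⊓ τ.ker, inf_le_left, ?_, ?_⟩
  · rw [eq_bot_iff]
    rintro v ⟨hvG, -, hvK⟩
    rw [Subgroup.mem_bot]
    have h1 : τ v = v ^ H.index := trMap_fixed H a ((hMG v).1 hvG)
    have h2 : v ^ H.index = 1 := by rw [← h1]; exact hvK
    rw [← hm v, pow_mul, h2, one_pow]
  · apply le_antisymm (sup_le hGH inf_le_left)
    intro v hv
    have hvH := (hMH v).1 hv
    have hτG : τ v ∈ MG := (hMG _).2 (fun g => trMap_invariant H a ha_mul ha_comp hvH g)
    have huG : (τ v) ^ m ∈ MG := pow_mem hτG m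
    have hsplit : v = (τ v) ^ m * (((τ v) ^ m)⁻¹ * v) := by group
    rw [hsplit]
    refine Subgroup.mul_mem_sup huG ⟨MH.mul_mem (MH.inv_mem (hGH huG)) hv, MonoidHom.mem_ker.2 ?_⟩
    rw [map_mul, map_inv]
    have h3 : τ ((τ v) ^ m) = ((τ v) ^ m) ^ H.index := trMap_fixed H a ((hMG _).1 huG)
    rw [h3, ← pow_mul, mul_comm m, hm, inv_mul_cancel]

/-- An exponent inverting the `n`-th power map on a finite group of order prime to `n`. -/
theorem exists_pow_inverse (M : Type*) [Group M] [Finite M] (n : ℕ) (hn : Nat.Coprime n (Nat.card M)) :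
    ∃ m : ℕ, ∀ x : M, x ^ (n * m) = x := by
  by_cases h1 : Nat.card M = 1
  · refine ⟨0, fun x => ?_⟩
    haveI : Subsingleton M := (Nat.card_eq_one_iff_unique.1 h1).1
    exact Subsingleton.elim _ _
  · have hpos : 0 < Nat.card M := Nat.card_pos
    obtain ⟨m, -, hmm⟩ := Nat.exists_mul_mod_eq_one_of_coprime hn (by omega)
    refine ⟨m, fun x => ?_⟩
    rw [← pow_mod_natCard, hmm, pow_one]

end

end Cfsg.Agent.H90

namespace Cfsg.Agent.H90

section
variable {G M : Type*} [Group G] [CommGroup M]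

/-- The points of `M` fixed by the elements of `T`. -/
def fixSub (a : G → M → M) (ha_mul : ∀ g x y, a g (x * y) = a g x * a g y) (T : Set G) : Subgroup M where
  carrier := {x | ∀ g ∈ T, a g x = x}
  one_mem' := fun g _ => act_one_eq a ha_mul g
  mul_mem' := by
    intro x y hx hy g hg
    rw [ha_mul, hx g hg, hy g hg]
  inv_mem' := by
    intro x hx g hg
    have h1 : a g x⁻¹ * a g x = 1 := by rw [← ha_mul, inv_mul_cancel, act_one_eq a ha_mul g]
    rw [hx g hg] at h1
    exact eq_inv_of_mul_eq_one_left h1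

theorem mem_fixSub {a : G → M → M} {ha_mul : ∀ g x y, a g (x * y) = a g x * a g y} {T : Set G} {x : M} :
    x ∈ fixSub a ha_mul T ↔ ∀ g ∈ T, a g x = x := Iff.rfl

theorem exists_complement_fixSub [Finite G] (H : Subgroup G) (a : G → M → M)
    (ha_mul : ∀ g x y, a g (x * y) = a g x * a g y) (ha_comp : ∀ g h x, a (g * h) x = a g (a h x))
    (m : ℕ) (hm : ∀ x : M, x ^ (H.index * m) = x) :
    ∃ K : Subgroup M, K ≤ fixSub a ha_mul H ∧ fixSub a ha_mul Set.univ ⊓ K = ⊥ ∧
      fixSub a ha_mul Set.univ ⊔ K = fixSub a ha_mul H :=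
  exists_complement_fixed H a ha_mul ha_comp m hm _ _
    (fun _ => ⟨fun h g => h g (Set.mem_univ g), fun h g _ => h g⟩) (fun _ => Iff.rfl)

end

end Cfsg.Agent.H90
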