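import Mathlib

set_option autoImplicit false
set_option maxHeartbeats 1000000

namespace Cfsg.Agent.H90

lemma zmod_two_mul_eq_zero {m : ℕ} (hm : 1 ≤ m) (t : ZMod (2 ^ m)) (h : 2 * t = 0) :
    t = 0 ∨ t = ((2 ^ (m - 1) : ℕ) : ZMod (2 ^ m)) := by
  haveI : NeZero (2 ^ m) := ⟨by positivity⟩
  have ht : t = ((t.val : ℕ) : ZMod (2 ^ m)) := (ZMod.natCast_zmod_val t).symm
  have h1 : ((2 * t.val : ℕ) : ZMod (2 ^ m)) = 0 := by
    push_cast
    rw [ZMod.natCast_zmod_val]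
    exact h
  rw [ZMod.natCast_eq_zero_iff] at h1
  have hlt : t.val < 2 ^ m := ZMod.val_lt t
  have hpow : 2 ^ m = 2 * 2 ^ (m - 1) := by
    conv_lhs => rw [show m = (m - 1) + 1 by omega]
    rw [pow_succ]; ring
  have h1' : 2 * 2 ^ (m - 1) ∣ 2 * t.val := by rw [← hpow]; exact h1
  have hlt' : t.val < 2 * 2 ^ (m - 1) := by rw [← hpow]; exact hlt
  have h2 : 2 ^ (m - 1) ∣ t.val := (Nat.mul_dvd_mul_iff_left (by norm_num)).1 h1'
  obtain ⟨c, hc⟩ := h2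
  have hc2 : c < 2 := by
    by_contra hcc
    have : 2 ≤ c := by omega
    have := Nat.mul_le_mul_left (2 ^ (m - 1)) this
    omega
  interval_cases c
  · left
    rw [ht, hc]; simp
  · right
    rw [ht, hc]; simp

lemma two_pow_add_self_zmod {m : ℕ} (hm : 1 ≤ m) :
    ((2 ^ (m - 1) : ℕ) : ZMod (2 ^ m)) + ((2 ^ (m - 1) : ℕ) : ZMod (2 ^ m)) = 0 := by
  rw [← Nat.cast_add, ← two_mul, ← pow_succ', show m - 1 + 1 = m by omega]
  exact ZMod.natCast_self _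

lemma coord_key {n : ℕ} (a : Fin n → ℕ) (ha : Function.Injective a) (ha1 : ∀ i, 1 ≤ a i) (k : ℕ)
    (x x' : (i : Fin n) → ZMod (2 ^ a i))
    (hx2 : 2 • x = 0) (hx'2 : 2 • x' = 0) (hx : ∃ y, x = 2 ^ k • y) (hx' : ∃ y, x' = 2 ^ k • y)
    (hnx : ¬ ∃ z, x = 2 ^ (k + 1) • z) (hnx' : ¬ ∃ z, x' = 2 ^ (k + 1) • z) :
    ∃ w, x + x' = 2 ^ (k + 1) • w := by
  -- Step A
  have stepA : ∀ u : (i : Fin n) → ZMod (2 ^ a i), 2 • u = 0 →
      ∀ i, u i = 0 ∨ u i = ((2 ^ (a i - 1) : ℕ) : ZMod (2 ^ a i)) := by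
    intro u hu i
    apply zmod_two_mul_eq_zero (ha1 i)
    have := congrFun hu i
    simpa using this
  -- Step B
  have stepB : ∀ u : (i : Fin n) → ZMod (2 ^ a i), (∃ y, u = 2 ^ k • y) → ∀ i, a i ≤ k → u i = 0 := by
    rintro u ⟨y, rfl⟩ i hi
    have h0 : ((2 ^ k : ℕ) : ZMod (2 ^ a i)) = 0 := (ZMod.natCast_eq_zero_iff _ _).2 (pow_dvd_pow 2 hi)
    simp only [Pi.smul_apply, nsmul_eq_mul]
    rw [h0, zero_mul]
  -- Step C
  have stepC : ∀ u : (i : Fin n) → ZMod (2 ^ a i),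
      (∀ i, u i = 0 ∨ (u i = ((2 ^ (a i - 1) : ℕ) : ZMod (2 ^ a i)) ∧ k + 2 ≤ a i)) →
      ∃ w, u = 2 ^ (k + 1) • w := by
    intro u hu
    classical
    refine ⟨fun i => if u i = 0 then 0 else ((2 ^ (a i - 1 - (k + 1)) : ℕ) : ZMod (2 ^ a i)), ?_⟩
    funext i
    simp only [Pi.smul_apply, nsmul_eq_mul]
    by_cases h0 : u i = 0
    · rw [if_pos h0, h0, mul_zero]
    · rw [if_neg h0]
      obtain ⟨h1, h2⟩ := (hu i).resolve_left h0
      rw [h1, ← Nat.cast_mul, ← pow_add, show k + 1 + (a i - 1 - (k + 1)) = a i - 1 by omega]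
  -- Step D
  have stepD : ∀ u : (i : Fin n) → ZMod (2 ^ a i), 2 • u = 0 → (∃ y, u = 2 ^ k • y) →
      (¬ ∃ z, u = 2 ^ (k + 1) • z) → ∃ i, a i = k + 1 ∧ u i = ((2 ^ (a i - 1) : ℕ) : ZMod (2 ^ a i)) := by
    intro u hu2 hu hnu
    by_contra hcon
    apply hnu
    apply stepC
    intro i
    by_cases h0 : u i = 0
    · exact Or.inl h0
    · right
      have h1 := (stepA u hu2 i).resolve_left h0
      refine ⟨h1, ?_⟩
      by_contra hlt
      have hk : ¬ a i ≤ k := fun h => h0 (stepB u hu i h)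
      exact hcon ⟨i, by omega, h1⟩
  obtain ⟨i₀, hi₀, hxi₀⟩ := stepD x hx2 hx hnx
  obtain ⟨i₁, hi₁, hxi₁⟩ := stepD x' hx'2 hx' hnx'
  have hi : i₁ = i₀ := ha (hi₁.trans hi₀.symm)
  subst hi
  apply stepC
  intro i
  by_cases hii : i = i₁
  · left
    subst hii
    rw [Pi.add_apply, hxi₀, hxi₁]
    exact two_pow_add_self_zmod (ha1 i)
  · have hai : a i ≠ k + 1 := fun h => hii (ha (h.trans hi₀.symm))
    by_cases hle : a i ≤ k
    · left
      rw [Pi.add_apply, stepB x hx i hle, stepB x' hx' i hle, add_zero]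
    · have hge : k + 2 ≤ a i := by omega
      rcases stepA x hx2 i with h1 | h1 <;> rcases stepA x' hx'2 i with h2 | h2
      · left; rw [Pi.add_apply, h1, h2, add_zero]
      · right; rw [Pi.add_apply, h1, h2, zero_add]; exact ⟨rfl, hge⟩
      · right; rw [Pi.add_apply, h1, h2, add_zero]; exact ⟨rfl, hge⟩
      · left; rw [Pi.add_apply, h1, h2]; exact two_pow_add_self_zmod (ha1 i)

end Cfsg.Agent.H90
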