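import Mathlib

/-!
Group-theoretic helpers for the weakly-embedded nilpotency criterion (S5271):
normal subgroups of prescribed order in a finite `p`-group, subgroups of prescribed order between
two given ones, and the order of a full preimage.
-/

set_option autoImplicit false

namespace Cfsg.Agent.H90

/-- The order of the full preimage of a subgroup under a surjective homomorphism. -/
theorem we_card_comap_of_surj {G H : Type*} [Group G] [Group H] [Finite G] (f : G →* H)
    (hf : Function.Surjective f) (K : Subgroup H) :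
    Nat.card (K.comap f) = Nat.card f.ker * Nat.card K := by
  haveI : Finite H := Finite.of_surjective f hf
  have h1 : Nat.card (K.comap f) * K.index = Nat.card G := by
    rw [← Subgroup.index_comap_of_surjective K hf]
    exact Subgroup.card_mul_index _
  have h2 : Nat.card K * K.index = Nat.card H := Subgroup.card_mul_index K
  have h3 : Nat.card f.ker * Nat.card H = Nat.card G := by
    have h4 : f.ker.index = Nat.card H := by
      rw [← MonoidHom.comap_bot, Subgroup.index_comap_of_surjective _ hf, Subgroup.index_bot]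
    rw [← h4]
    exact Subgroup.card_mul_index _
  have hpos : 0 < K.index := Nat.pos_of_ne_zero Subgroup.index_ne_zero_of_finite
  apply Nat.eq_of_mul_eq_mul_right hpos
  rw [h1, ← h3, ← h2, mul_assoc]

/-- A proper normal subgroup of a finite `p`-group lies in a normal subgroup `p` times as large. -/
theorem we_exists_normal_step {G : Type*} [Group G] [Finite G] {p : ℕ} [Fact p.Prime]
    (hG : IsPGroup p G) (N : Subgroup G) [N.Normal] (hN : N ≠ ⊤) :
    ∃ K : Subgroup G, K.Normal ∧ N ≤ K ∧ Nat.card K = Nat.card N * p := by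
  have hQ : IsPGroup p (G ⧸ N) := hG.to_quotient N
  haveI : Nontrivial (G ⧸ N) := by
    by_contra hnt
    rw [not_nontrivial_iff_subsingleton] at hnt
    apply hN
    rw [eq_top_iff]
    intro x _
    rw [← QuotientGroup.eq_one_iff]
    exact Subsingleton.elim _ _
  haveI hZ : Nontrivial (Subgroup.center (G ⧸ N)) := hQ.center_nontrivial
  have hZp : IsPGroup p (Subgroup.center (G ⧸ N)) := hQ.to_subgroup _
  have hcard : Nat.card (Subgroup.center (G ⧸ N)) ≠ 1 := by
    intro h1
    have := (Nat.card_eq_one_iff_unique.1 h1).1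
    exact not_subsingleton (Subgroup.center (G ⧸ N)) this
  have hdvd : p ∣ Nat.card (Subgroup.center (G ⧸ N)) := hZp.card_eq_or_dvd.resolve_left hcard
  obtain ⟨z, hz⟩ := exists_prime_orderOf_dvd_card' p hdvd
  have hzc : ∀ g : G ⧸ N, g * (z : G ⧸ N) = (z : G ⧸ N) * g := fun g =>
    Subgroup.mem_center_iff.1 z.2 g
  have hCn : (Subgroup.zpowers (z : G ⧸ N)).Normal := by
    refine ⟨fun x hx g => ?_⟩
    obtain ⟨i, rfl⟩ := Subgroup.mem_zpowers_iff.1 hx
    have hcomm : Commute g (z : G ⧸ N) := hzc g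
    have h1 : g * (z : G ⧸ N) ^ i * g⁻¹ = (z : G ⧸ N) ^ i := by
      rw [(hcomm.zpow_right i).eq, mul_inv_cancel_right]
    rw [h1]
    exact Subgroup.zpow_mem_zpowers _ i
  have hCcard : Nat.card (Subgroup.zpowers (z : G ⧸ N)) = p := by
    rw [Nat.card_zpowers, Subgroup.orderOf_coe, hz]
  refine ⟨(Subgroup.zpowers (z : G ⧸ N)).comap (QuotientGroup.mk' N), hCn.comap _, ?_, ?_⟩
  · intro x hx
    rw [Subgroup.mem_comap]
    have h1 : (QuotientGroup.mk' N) x = 1 := (QuotientGroup.eq_one_iff x).2 hx
    rw [h1]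
    exact Subgroup.one_mem _
  · rw [we_card_comap_of_surj _ (QuotientGroup.mk'_surjective N), QuotientGroup.ker_mk', hCcard]

/-- In a finite `p`-group, a normal subgroup of order `p ^ a` lies in a normal subgroup of order
`p ^ (a + d)` as soon as the group is large enough. -/
theorem we_exists_normal_card {G : Type*} [Group G] [Finite G] {p : ℕ} [Fact p.Prime]
    (hG : IsPGroup p G) (d : ℕ) : ∀ (N : Subgroup G) (a : ℕ), N.Normal → Nat.card N = p ^ a →
      p ^ (a + d) ≤ Nat.card G →
      ∃ K : Subgroup G, K.Normal ∧ N ≤ K ∧ Nat.card K = p ^ (a + d) := by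
  induction d with
  | zero =>
    intro N a hN hc _
    exact ⟨N, hN, le_rfl, hc⟩
  | succ d ih =>
    intro N a hN hc hle
    have hp1 : 1 < p := (Fact.out : p.Prime).one_lt
    have hNtop : N ≠ ⊤ := by
      rintro rfl
      rw [Subgroup.card_top] at hc
      rw [hc] at hle
      exact absurd hle (not_le.2 (Nat.pow_lt_pow_right hp1 (by omega)))
    haveI := hN
    obtain ⟨K, hKn, hNK, hKc⟩ := we_exists_normal_step hG N hNtop
    have hKc' : Nat.card K = p ^ (a + 1) := by rw [hKc, hc, pow_succ]
    have hle' : p ^ (a + 1 + d) ≤ Nat.card G := by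
      rw [show a + 1 + d = a + (d + 1) by omega]
      exact hle
    obtain ⟨L, hLn, hKL, hLc⟩ := ih K (a + 1) hKn hKc' hle'
    refine ⟨L, hLn, hNK.trans hKL, ?_⟩
    rw [hLc, show a + 1 + d = a + (d + 1) by omega]

/-- Between two subgroups of a finite `p`-group there are subgroups of every intermediate order. -/
theorem we_exists_between {Ω : Type*} [Group Ω] {p : ℕ} [Fact p.Prime] {X Y : Subgroup Ω}
    [Finite Y] (hY : IsPGroup p Y) (hXY : X ≤ Y) {k : ℕ} (hX : Nat.card X ≤ p ^ k)
    (hk : p ^ k ≤ Nat.card Y) : ∃ Q : Subgroup Ω, X ≤ Q ∧ Q ≤ Y ∧ Nat.card Q = p ^ k := by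
  have hp1 : 1 < p := (Fact.out : p.Prime).one_lt
  obtain ⟨m, hm⟩ := IsPGroup.iff_card.1 hY
  have hXp : IsPGroup p (X.subgroupOf Y) := hY.to_subgroup _
  obtain ⟨a, ha⟩ := IsPGroup.iff_card.1 hXp
  have hcX : Nat.card (X.subgroupOf Y) = Nat.card X :=
    Nat.card_congr (Subgroup.subgroupOfEquivOfLe hXY).toEquiv
  have hak : a ≤ k := by
    rw [← hcX, ha] at hX
    exact (Nat.pow_le_pow_iff_right hp1).1 hX
  have hkm : k ≤ m := by
    rw [hm] at hk
    exact (Nat.pow_le_pow_iff_right hp1).1 hk
  have hdvd : p ^ k ∣ Nat.card Y := by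
    rw [hm]
    exact pow_dvd_pow p hkm
  obtain ⟨K, hK, hXK⟩ := Sylow.exists_subgroup_card_pow_prime_le p hdvd (X.subgroupOf Y) ha hak
  refine ⟨K.map Y.subtype, ?_, ?_, ?_⟩
  · intro x hx
    exact ⟨⟨x, hXY hx⟩, hXK (Subgroup.mem_subgroupOf.2 hx), rfl⟩
  · rintro _ ⟨y, -, rfl⟩
    exact y.2
  · rw [Subgroup.card_map_of_injective Y.subtype_injective]
    exact hK

end Cfsg.Agent.H90
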