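import Mathlib
import Cfsg.Prelude.Def_FusionSystem
import Cfsg.Prelude.Def_FusionComponents
import Cfsg.Agent.H86.FusBasic
import Cfsg.Agent.H86.FusAut
import Cfsg.Agent.H86.FusNormal
import Cfsg.Agent.H86.FusSylow
import Cfsg.Agent.H88.Puig
import Cfsg.Agent.H88.FactorSat
import Cfsg.Agent.H88.Solvable
import Cfsg.Agent.H88.Quasi
import Cfsg.Agent.H87.DirFactor
import Cfsg.Agent.H90.Constrained
import Cfsg.Agent.H90.WEmbGrp
import Cfsg.Agent.S5128

/-!
Fusion-system helpers for the weakly-embedded nilpotency criterion (S5271): the two hypotheses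
`WEi`, `WEii`, their passage to factor systems, and minimal strongly closed subgroups.
-/

set_option autoImplicit false

namespace Cfsg.Agent.H90

open Cfsg Cfsg.FusionSystem Cfsg.Agent.H86 Cfsg.Agent.H88

universe u

variable {Ω : Type u} [Group Ω] {S : Subgroup Ω}

/-- Every subgroup of `S` of order `d` is weakly embedded in `F`. -/
def WEi (F : FusionSystem S) (d : ℕ) : Prop :=
  ∀ Q : Subgroup Ω, Q ≤ S → Nat.card Q = d →
    ∃ P : Subgroup Ω, F.StronglyClosed P ∧ F.StronglyClosed (Q ⊔ P) ∧ F.StronglyClosed (Q ⊓ P)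

/-- Every map of `F` whose source contains a strongly closed subgroup of order `d` is a conjugation
by an element of `S`. -/
def WEii (F : FusionSystem S) (d : ℕ) : Prop :=
  ∀ H : Subgroup Ω, F.StronglyClosed H → Nat.card H = d → ∀ (D : Subgroup Ω) (f : Ω → Ω), H ≤ D →
    Mor F D f → ∃ s ∈ S, ∀ x ∈ D, f x = s * x * s⁻¹

/-- Elements of `A N` with `N` strongly closed. -/
lemma we_mem_sup {F : FusionSystem S} {A N : Subgroup Ω} (hA : A ≤ S) (hN : F.StronglyClosed N)
    {x : Ω} (hx : x ∈ A ⊔ N) : ∃ a ∈ A, ∃ n ∈ N, x = a * n := by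
  have hcoe := Subgroup.coe_mul_of_left_le_normalizer_right A N
    (hA.trans (Cfsg.Agent.H87.stronglyClosed_le_normalizer hN))
  have hx' : x ∈ ((A ⊔ N : Subgroup Ω) : Set Ω) := hx
  rw [hcoe] at hx'
  obtain ⟨a, ha, n, hn, rfl⟩ := Set.mem_mul.1 hx'
  exact ⟨a, ha, n, hn, rfl⟩

/-- `S` itself is strongly closed. -/
lemma we_stronglyClosed_self (F : FusionSystem S) : F.StronglyClosed S :=
  stronglyClosed_iff.2 ⟨le_rfl, fun _ _ _ hf _ hx => hf.mem hx⟩

/-- Below a nontrivial strongly closed subgroup there is a minimal nontrivial one. -/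
lemma we_exists_min_sc [Finite S] (F : FusionSystem S) {P : Subgroup Ω} (hP : F.StronglyClosed P)
    (hP1 : P ≠ ⊥) : ∃ T : Subgroup Ω, F.StronglyClosed T ∧ T ≠ ⊥ ∧ T ≤ P ∧
      ∀ R : Subgroup Ω, F.StronglyClosed R → R ≠ ⊥ → R ≤ T → R = T := by
  have key : ∀ n : ℕ, ∀ P : Subgroup Ω, F.StronglyClosed P → P ≠ ⊥ → Nat.card P ≤ n →
      ∃ T : Subgroup Ω, F.StronglyClosed T ∧ T ≠ ⊥ ∧ T ≤ P ∧
        ∀ R : Subgroup Ω, F.StronglyClosed R → R ≠ ⊥ → R ≤ T → R = T := by
    intro n
    induction n with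
    | zero =>
      intro P hP _ hc
      haveI : Finite P := finite_of_le hP.1
      have := Nat.card_pos (α := P)
      omega
    | succ n ih =>
      intro P hP hP1 hc
      by_cases hmin : ∀ R : Subgroup Ω, F.StronglyClosed R → R ≠ ⊥ → R ≤ P → R = P
      · exact ⟨P, hP, hP1, le_rfl, hmin⟩
      · push_neg at hmin
        obtain ⟨R, hR, hR1, hRP, hne⟩ := hmin
        haveI : Finite P := finite_of_le hP.1
        have hlt : Nat.card R < Nat.card P := by
          by_contra hge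
          exact hne (Subgroup.eq_of_le_of_card_ge hRP (not_lt.1 hge))
        obtain ⟨T, hT, hT1, hTR, hTmin⟩ := ih R hR hR1 (by omega)
        exact ⟨T, hT, hT1, hTR.trans hRP, hTmin⟩
  exact key _ P hP hP1 le_rfl

/-- A minimal strongly closed subgroup has order at most `p ^ k` when all subgroups of that order
are weakly embedded. -/
lemma we_card_min_sc_le [Finite S] {p : ℕ} [Fact p.Prime] (hS : IsPGroup p S) {F : FusionSystem S}
    {k : ℕ} (hk : 0 < k) (hi : WEi F (p ^ k)) {T : Subgroup Ω} (hT : F.StronglyClosed T)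
    (hTmin : ∀ R : Subgroup Ω, F.StronglyClosed R → R ≠ ⊥ → R ≤ T → R = T) :
    Nat.card T ≤ p ^ k := by
  by_contra hlt
  push_neg at hlt
  have hp1 : 1 < p := (Fact.out : p.Prime).one_lt
  have hTS := hT.1
  haveI : Finite T := finite_of_le hTS
  have hTp : IsPGroup p T := hS.to_le hTS
  obtain ⟨Q, -, hQT, hQc⟩ := we_exists_between hTp (bot_le : (⊥ : Subgroup Ω) ≤ T) (k := k)
    (by rw [Subgroup.card_bot]; exact Nat.one_le_pow _ _ (by omega)) hlt.le
  obtain ⟨P, hP, hQP, hQiP⟩ := hi Q (hQT.trans hTS) hQc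
  have hQ1 : Q ≠ ⊥ := by
    rintro rfl
    rw [Subgroup.card_bot] at hQc
    exact absurd hQc.symm (Nat.one_lt_pow hk.ne' hp1).ne'
  have hQneT : Q ≠ T := by
    rintro rfl
    omega
  have h1 : Q ⊓ P = ⊥ := by
    by_contra h
    have h' := hTmin _ hQiP h (inf_le_left.trans hQT)
    have hTQ : T ≤ Q := by
      rw [← h']
      exact inf_le_left
    exact hQneT (le_antisymm hQT hTQ)
  have h2 : P ⊓ T = ⊥ := by
    by_contra h
    have h' := hTmin _ (Cfsg.Agent.H90.stronglyClosed_inf hP hT) h inf_le_right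
    have hTP : T ≤ P := by
      rw [← h']
      exact inf_le_left
    have hQle : Q ≤ Q ⊓ P := le_inf le_rfl (hQT.trans hTP)
    rw [h1] at hQle
    exact hQ1 (le_bot_iff.1 hQle)
  have h3 : (Q ⊔ P) ⊓ T = T := by
    refine hTmin _ (Cfsg.Agent.H90.stronglyClosed_inf hQP hT) (fun h => ?_) inf_le_right
    have hQle : Q ≤ (Q ⊔ P) ⊓ T := le_inf le_sup_left hQT
    rw [h] at hQle
    exact hQ1 (le_bot_iff.1 hQle)
  have hTQ : T ≤ Q := by
    intro t ht
    have ht' : t ∈ (Q ⊔ P) ⊓ T := by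
      rw [h3]
      exact ht
    obtain ⟨q, hq, x, hx, rfl⟩ := we_mem_sup (hQT.trans hTS) hP ht'.1
    have hxT : x ∈ T := by
      have e : x = q⁻¹ * (q * x) := by group
      rw [e]
      exact T.mul_mem (T.inv_mem (hQT hq)) ht
    have hx1 : x = 1 := by
      have hxm : x ∈ P ⊓ T := ⟨hx, hxT⟩
      rw [h2] at hxm
      exact Subgroup.mem_bot.1 hxm
    rw [hx1, mul_one]
    exact hq
  exact hQneT (le_antisymm hQT hTQ)

/-- A fusion system all of whose maps are conjugations has trivial hyperfocal subgroup. -/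
theorem we_hyperfocal_eq_bot_of_all_conj {p : ℕ} (hS : IsPGroup p S) {F : FusionSystem S}
    (h : ∀ (D : Subgroup Ω) (f : Ω → Ω), Mor F D f → ∃ s ∈ S, ∀ x ∈ D, f x = s * x * s⁻¹) :
    F.hyperfocalSubgroup p = ⊥ := by
  apply Cfsg.Agent.H88.hyperfocal_eq_bot_of_autGroups_pGroups
  intro P hP
  have hle : F.autGroup P ≤ autInducedBy S P := by
    intro α hα
    rw [Cfsg.Agent.H86.mem_autGroup_iff hP] at hα
    obtain ⟨s, hs, H⟩ := h P _ hα
    rw [mem_autInducedBy_iff]
    exact ⟨s, hs, fun x => by rw [← autFun_apply, H x x.2]⟩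
  exact (autInducedBy_isPGroup hS P).to_le hle

section Factor

variable {Ω' : Type u} [Group Ω'] {F : FusionSystem S} {T : Subgroup Ω} {S' : Subgroup Ω'}
  {θ : S →* Ω'} {E : FusionSystem S'}

/-- Maps of the factor system are conjugations if their lifts are. -/
lemma we_conj_factor (hE : F.IsFactorSystem T θ E) {D' : Subgroup Ω'} {f' : Ω' → Ω'}
    (hf' : Mor E D' f')
    (h : ∀ f, Mor F (preimageAlong θ D') f →
      ∃ s ∈ S, ∀ x ∈ preimageAlong θ D', f x = s * x * s⁻¹) :
    ∃ s' ∈ S', ∀ y ∈ D', f' y = s' * y * s'⁻¹ := by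
  obtain ⟨f, hf, H⟩ := factor_lift hE hf'
  obtain ⟨s, hs, hsf⟩ := h f hf
  refine ⟨tot θ s, tot_mem hE s, fun y hy => ?_⟩
  obtain ⟨x, hxS, rfl⟩ := exists_tot_eq hE (hf'.le hy)
  have hxD : x ∈ preimageAlong θ D' := mem_preimageAlong_iff.2 ⟨hxS, hy⟩
  rw [H x hxD, hsf x hxD, tot_conj θ hs hxS]

/-- The second hypothesis passes to factor systems. -/
theorem we_weii_factor [Finite S] {p : ℕ} [Fact p.Prime] (hS : IsPGroup p S)
    (hF : F.IsSaturated p) (hT : F.StronglyClosed T) (hE : F.IsFactorSystem T θ E) {c d : ℕ}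
    (hcard : ∀ H' : Subgroup Ω', H' ≤ S' → Nat.card (preimageAlong θ H') = c * Nat.card H')
    (hii : WEii F (c * d)) : WEii E d := by
  intro H' hH' hH'c D' f' hHD hf'
  have hHsc := factor_stronglyClosed_preimage hS hF hT hE hH'
  have hHc : Nat.card (preimageAlong θ H') = c * d := by rw [hcard H' hH'.1, hH'c]
  have hle : preimageAlong θ H' ≤ preimageAlong θ D' := by
    intro x hx
    rw [mem_preimageAlong_iff] at hx ⊢
    exact ⟨hx.1, hHD hx.2⟩
  exact we_conj_factor hE hf' (fun f hf => hii _ hHsc hHc (preimageAlong θ D') f hle hf)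

/-- The first hypothesis passes to factor systems. -/
theorem we_wei_factor [Finite S] {p : ℕ} [Fact p.Prime] (hS : IsPGroup p S)
    (hF : F.IsSaturated p) (hT : F.StronglyClosed T) (hE : F.IsFactorSystem T θ E) {c d : ℕ}
    (hcard : ∀ H' : Subgroup Ω', H' ≤ S' → Nat.card (preimageAlong θ H') = c * Nat.card H')
    (hi : WEi F (c * d)) : WEi E d := by
  intro Q' hQ' hQ'c
  have hQc : Nat.card (preimageAlong θ Q') = c * d := by rw [hcard Q' hQ', hQ'c]
  have hQS : preimageAlong θ Q' ≤ S := preimageAlong_le θ Q'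
  obtain ⟨P, hP, hQP, hQiP⟩ := hi (preimageAlong θ Q') hQS hQc
  have hPT : F.StronglyClosed (P ⊔ T) := Cfsg.Agent.S5128.result p hS F hF P T hP hT
  have hTQ : T ≤ preimageAlong θ Q' := le_preimageAlong hE Q'
  refine ⟨imageAlong θ (P ⊔ T), factor_stronglyClosed_image hE hPT le_sup_right, ?_, ?_⟩
  · have hQPT : F.StronglyClosed ((preimageAlong θ Q' ⊔ P) ⊔ T) :=
      Cfsg.Agent.S5128.result p hS F hF _ T hQP hT
    have e : Q' ⊔ imageAlong θ (P ⊔ T) = imageAlong θ ((preimageAlong θ Q' ⊔ P) ⊔ T) := by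
      apply le_antisymm
      · apply sup_le
        · intro y hy
          obtain ⟨x, hxS, rfl⟩ := exists_tot_eq hE (hQ' hy)
          exact tot_mem_imageAlong hQPT.1
            (Subgroup.mem_sup_left (Subgroup.mem_sup_left (mem_preimageAlong_iff.2 ⟨hxS, hy⟩)))
        · exact imageAlong_mono' θ (sup_le (le_sup_right.trans le_sup_left) le_sup_right)
      · intro y hy
        obtain ⟨x, hx, rfl⟩ := (mem_imageAlong_iff hQPT.1).1 hy
        rw [sup_assoc] at hx
        obtain ⟨a, ha, n, hn, rfl⟩ := we_mem_sup hQS hPT hx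
        rw [tot_mul θ (hQS ha) (hPT.1 hn)]
        exact Subgroup.mul_mem_sup (mem_preimageAlong_iff.1 ha).2 (tot_mem_imageAlong hPT.1 hn)
    rw [e]
    exact factor_stronglyClosed_image hE hQPT le_sup_right
  · have hQiPT : F.StronglyClosed ((preimageAlong θ Q' ⊓ P) ⊔ T) :=
      Cfsg.Agent.S5128.result p hS F hF _ T hQiP hT
    have e : Q' ⊓ imageAlong θ (P ⊔ T) = imageAlong θ ((preimageAlong θ Q' ⊓ P) ⊔ T) := by
      ext y
      rw [Subgroup.mem_inf, mem_imageAlong_iff hPT.1, mem_imageAlong_iff hQiPT.1]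
      constructor
      · rintro ⟨hyQ, x, hx, rfl⟩
        refine ⟨x, ?_, rfl⟩
        have hxQ : x ∈ preimageAlong θ Q' := mem_preimageAlong_iff.2 ⟨hPT.1 hx, hyQ⟩
        obtain ⟨a, ha, t, ht, rfl⟩ := we_mem_sup hP.1 hT hx
        have haQ : a ∈ preimageAlong θ Q' := by
          have e : a = (a * t) * t⁻¹ := by group
          rw [e]
          exact Subgroup.mul_mem _ hxQ (Subgroup.inv_mem _ (hTQ ht))
        exact Subgroup.mul_mem_sup ⟨haQ, ha⟩ ht
      · rintro ⟨x, hx, rfl⟩
        have hle1 : (preimageAlong θ Q' ⊓ P) ⊔ T ≤ preimageAlong θ Q' := sup_le inf_le_left hTQ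
        have hle2 : (preimageAlong θ Q' ⊓ P) ⊔ T ≤ P ⊔ T :=
          sup_le (inf_le_right.trans le_sup_left) le_sup_right
        have hxQ : x ∈ preimageAlong θ Q' := hle1 hx
        exact ⟨(mem_preimageAlong_iff.1 hxQ).2, x, hle2 hx, rfl⟩
    rw [e]
    exact factor_stronglyClosed_image hE hQiPT le_sup_right

end Factor

/-- The order of a full preimage under the quotient map by a strongly closed subgroup. -/
theorem we_card_preimageAlong_mk [Finite S] {T : Subgroup Ω} (hTS : T ≤ S)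
    [(T.subgroupOf S).Normal] (H' : Subgroup (S ⧸ T.subgroupOf S)) :
    Nat.card (preimageAlong (QuotientGroup.mk' (T.subgroupOf S)) H') = Nat.card T * Nat.card H' := by
  unfold preimageAlong
  rw [Subgroup.card_map_of_injective S.subtype_injective,
    we_card_comap_of_surj _ (QuotientGroup.mk'_surjective _), QuotientGroup.ker_mk']
  congr 1
  exact Nat.card_congr (Subgroup.subgroupOfEquivOfLe hTS).toEquiv

end Cfsg.Agent.H90
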