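import Mathlib
import Cfsg.Agent.H90.WEmbFus
import Cfsg.Agent.H86.FusExt
import Cfsg.Agent.H86.FusSat
import Cfsg.Agent.H87.Hyp
import Cfsg.Agent.H87.Thompson
import Cfsg.Agent.H88.Factor
import Cfsg.Agent.H89.HypFactor
import Cfsg.Agent.H90.Tate2
import Cfsg.Agent.H90.Tate4
import Cfsg.Agent.H90.Tate5
import Cfsg.Agent.H90.CTNormal
import Cfsg.Agent.H3.PGroup

/-!
The weakly-embedded nilpotency criterion (S5271), main induction: a saturated fusion system over
`S` in which every subgroup of order `p ^ k` (`1 < p ^ k < |S|`) is weakly embedded and every map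
defined on a strongly closed subgroup of that order is a conjugation has trivial hyperfocal
subgroup.
-/

set_option autoImplicit false

namespace Cfsg.Agent.H90

open Cfsg Cfsg.FusionSystem Cfsg.Agent.H86 Cfsg.Agent.H88

universe u

/-- The hyperfocal subgroup lies in every minimal strongly closed subgroup, and these have order at
most `p ^ k` (given the statement for smaller groups). -/
theorem we_stepM {Ω : Type u} [Group Ω] {S : Subgroup Ω} [Finite S] {p : ℕ} [Fact p.Prime]
    (hS : IsPGroup p S) {F : FusionSystem S} (hF : F.IsSaturated p) {k : ℕ} (hk : 0 < k)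
    (hkn : p ^ k < Nat.card S) (hi : WEi F (p ^ k)) (hii : WEii F (p ^ k))
    (ih : ∀ (Ω' : Type u) [Group Ω'] (S' : Subgroup Ω') [Finite S'] (E : FusionSystem S') (k' : ℕ),
      Nat.card S' < Nat.card S → IsPGroup p S' → E.IsSaturated p → 0 < k' → p ^ k' < Nat.card S' →
      WEi E (p ^ k') → WEii E (p ^ k') → E.hyperfocalSubgroup p = ⊥)
    {T : Subgroup Ω} (hT : F.StronglyClosed T) (hT1 : T ≠ ⊥)
    (hTmin : ∀ R : Subgroup Ω, F.StronglyClosed R → R ≠ ⊥ → R ≤ T → R = T) :
    Nat.card T ≤ p ^ k ∧ F.hyperfocalSubgroup p ≤ T := by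
  have hp1 : 1 < p := (Fact.out : p.Prime).one_lt
  have hTc := we_card_min_sc_le hS hk hi hT hTmin
  refine ⟨hTc, ?_⟩
  haveI hnorm : (T.subgroupOf S).Normal :=
    (Subgroup.normal_subgroupOf_iff_le_normalizer hT.1).2
      (Cfsg.Agent.H88.stronglyClosed_le_normalizer hT)
  obtain ⟨E, hE⟩ := exists_factorSystem F T hT
  have hEsat : E.IsSaturated p := factor_saturated hS hF hT hE
  have hS' : IsPGroup p (⊤ : Subgroup (S ⧸ T.subgroupOf S)) :=
    (hS.to_quotient (T.subgroupOf S)).to_subgroup _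
  haveI : Finite T := finite_of_le hT.1
  obtain ⟨j, hj⟩ := IsPGroup.iff_card.1 (hS.to_le hT.1)
  have hjk : j ≤ k := by
    rw [hj] at hTc
    exact (Nat.pow_le_pow_iff_right hp1).1 hTc
  have hj0 : 0 < j := by
    by_contra h0
    have hj' : j = 0 := by omega
    rw [hj', pow_zero] at hj
    exact hT1 (Subgroup.eq_bot_of_card_eq T hj)
  have hcard : ∀ H' : Subgroup (S ⧸ T.subgroupOf S), H' ≤ ⊤ →
      Nat.card (preimageAlong (QuotientGroup.mk' (T.subgroupOf S)) H') = p ^ j * Nat.card H' := by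
    intro H' _
    rw [we_card_preimageAlong_mk hT.1, hj]
  have hEhyp : E.hyperfocalSubgroup p = ⊥ := by
    rcases Nat.lt_or_eq_of_le hjk with hlt | heq
    · have hcS' : Nat.card (⊤ : Subgroup (S ⧸ T.subgroupOf S)) * p ^ j = Nat.card S := by
        rw [Subgroup.card_top, ← hj, ← Nat.card_congr (Subgroup.subgroupOfEquivOfLe hT.1).toEquiv]
        exact (Subgroup.card_eq_card_quotient_mul_card_subgroup _).symm
      have hpk : p ^ k = p ^ j * p ^ (k - j) := by
        rw [← pow_add]
        congr 1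
        omega
      have hpj : 1 < p ^ j := Nat.one_lt_pow hj0.ne' hp1
      have hpos : 0 < Nat.card (⊤ : Subgroup (S ⧸ T.subgroupOf S)) := Nat.card_pos
      have hi' : WEi F (p ^ j * p ^ (k - j)) := by
        rw [← hpk]
        exact hi
      have hii' : WEii F (p ^ j * p ^ (k - j)) := by
        rw [← hpk]
        exact hii
      refine ih (S ⧸ T.subgroupOf S) ⊤ E (k - j) ?_ hS' hEsat (by omega) ?_
        (we_wei_factor hS hF hT hE hcard hi') (we_weii_factor hS hF hT hE hcard hii')
      · rw [← hcS']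
        nlinarith
      · have h1 : p ^ (k - j) * p ^ j < Nat.card (⊤ : Subgroup (S ⧸ T.subgroupOf S)) * p ^ j := by
          rw [hcS', ← pow_add, show k - j + j = k by omega]
          exact hkn
        exact lt_of_mul_lt_mul_right h1 (Nat.zero_le _)
    · apply we_hyperfocal_eq_bot_of_all_conj hS'
      intro D' f' hf'
      exact we_conj_factor hE hf'
        (fun f hf => hii T hT (by rw [hj, heq]) _ f (le_preimageAlong hE D') hf)
  have h1 := Cfsg.Agent.H89.hyperfocal_factor p hS hF hT _ E hE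
  rw [hEhyp] at h1
  intro y hy
  have hyS : y ∈ S := Cfsg.Agent.H87.hyperfocal_le F p hy
  have h2 : (QuotientGroup.mk' (T.subgroupOf S)) ⟨y, hyS⟩ ∈
      ((F.hyperfocalSubgroup p).subgroupOf S).map (QuotientGroup.mk' (T.subgroupOf S)) :=
    ⟨⟨y, hyS⟩, Subgroup.mem_subgroupOf.2 hy, rfl⟩
  rw [← h1, Subgroup.mem_bot] at h2
  exact (hE.2.1 ⟨y, hyS⟩).1 h2

/-- The final step: the hyperfocal subgroup lies in the Frattini subgroup, hence is trivial. -/
theorem we_final {Ω : Type u} [Group Ω] {S : Subgroup Ω} [Finite S] {p : ℕ} [Fact p.Prime]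
    (hS : IsPGroup p S) {F : FusionSystem S} (hF : F.IsSaturated p) {k : ℕ} (hk : 0 < k)
    (hkn : p ^ k < Nat.card S) (hi : WEi F (p ^ k)) (hii : WEii F (p ^ k))
    (stepM : ∀ T : Subgroup Ω, F.StronglyClosed T → T ≠ ⊥ →
      (∀ R : Subgroup Ω, F.StronglyClosed R → R ≠ ⊥ → R ≤ T → R = T) →
      Nat.card T ≤ p ^ k ∧ F.hyperfocalSubgroup p ≤ T) :
    F.hyperfocalSubgroup p = ⊥ := by
  classical
  have hp1 : 1 < p := (Fact.out : p.Prime).one_lt
  by_contra hY
  have hYS : F.hyperfocalSubgroup p ≤ S := Cfsg.Agent.H87.hyperfocal_le F p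
  have hYle : ∀ P : Subgroup Ω, F.StronglyClosed P → P ≠ ⊥ → F.hyperfocalSubgroup p ≤ P := by
    intro P hP hP1
    obtain ⟨T, hT, hT1, hTP, hTmin⟩ := we_exists_min_sc F hP hP1
    exact (stepM T hT hT1 hTmin).2.trans hTP
  have hSne : S ≠ ⊥ := by
    intro h
    apply hY
    rw [eq_bot_iff, ← h]
    exact hYS
  obtain ⟨T0, hT0, hT01, -, hT0min⟩ := we_exists_min_sc F (we_stronglyClosed_self F) hSne
  obtain ⟨hT0c, hYT0⟩ := stepM T0 hT0 hT01 hT0min
  haveI : Finite T0 := finite_of_le hT0.1
  have hYfr : F.hyperfocalSubgroup p ≤ (frattini S).map S.subtype := by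
    by_contra hnot
    obtain ⟨M₀, hM₀, hYM₀⟩ : ∃ M₀ : Subgroup S, IsCoatom M₀ ∧
        ¬ (F.hyperfocalSubgroup p).subgroupOf S ≤ M₀ := by
      by_contra hall
      push_neg at hall
      apply hnot
      intro y hy
      refine ⟨⟨y, hYS hy⟩, ?_, rfl⟩
      show (⟨y, hYS hy⟩ : S) ∈ ⨅ a ∈ {H : Subgroup S | IsCoatom H}, a
      simp only [Subgroup.mem_iInf]
      intro M hM
      exact hall M hM (Subgroup.mem_subgroupOf.2 hy)
    have hMS : M₀.map S.subtype ≤ S := by
      rintro _ ⟨y, -, rfl⟩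
      exact y.2
    have hYM : ¬ F.hyperfocalSubgroup p ≤ M₀.map S.subtype := by
      intro h
      apply hYM₀
      intro y hy
      obtain ⟨z, hz, hzy⟩ := h (Subgroup.mem_subgroupOf.1 hy)
      have hzy' : z = y := Subtype.ext hzy
      rw [← hzy']
      exact hz
    have hΦM : (frattini S).map S.subtype ≤ M₀.map S.subtype :=
      Subgroup.map_mono (frattini_le_coatom hM₀)
    haveI : Finite (M₀.map S.subtype : Subgroup Ω) := finite_of_le hMS
    have hMc : p ^ k ≤ Nat.card (M₀.map S.subtype : Subgroup Ω) := by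
      rw [Subgroup.card_map_of_injective S.subtype_injective]
      have hidx : M₀.index = p := Cfsg.Agent.H3.coatom_index hS hM₀
      have h1 : Nat.card M₀ * p = Nat.card S := by
        rw [← hidx]
        exact Subgroup.card_mul_index M₀
      obtain ⟨m, hm⟩ := IsPGroup.iff_card.1 (hS.to_subgroup M₀)
      rw [hm]
      rw [← h1, hm, ← pow_succ] at hkn
      have hkm : k < m + 1 := (Nat.pow_lt_pow_iff_right hp1).1 hkn
      exact Nat.pow_le_pow_right (by omega) (by omega)
    have hMp : IsPGroup p (M₀.map S.subtype : Subgroup Ω) := hS.to_le hMS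
    by_cases hMT : M₀.map S.subtype ⊓ T0 = ⊥
    · -- `T0` is central in `S`
      have hcen : ∀ t ∈ T0, ∀ s ∈ S, s * t * s⁻¹ = t := by
        intro t ht s hs
        have h1 : t⁻¹ * (s * t * s⁻¹) ∈ M₀.map S.subtype ⊓ T0 :=
          ⟨hΦM (comm_mem_frattini_map hS (hT0.1 ht) hs),
            T0.mul_mem (T0.inv_mem ht) (Cfsg.Agent.H88.stronglyClosed_conj_mem hT0 hs ht)⟩
        rw [hMT, Subgroup.mem_bot] at h1
        exact (inv_mul_eq_one.1 h1).symm
      obtain ⟨j, hj⟩ := IsPGroup.iff_card.1 (hS.to_le hT0.1)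
      have hjk : j ≤ k := by
        rw [hj] at hT0c
        exact (Nat.pow_le_pow_iff_right hp1).1 hT0c
      haveI hnorm : (T0.subgroupOf S).Normal :=
        (Subgroup.normal_subgroupOf_iff_le_normalizer hT0.1).2
          (Cfsg.Agent.H88.stronglyClosed_le_normalizer hT0)
      have hcT0 : Nat.card (T0.subgroupOf S) = p ^ j := by
        rw [Nat.card_congr (Subgroup.subgroupOfEquivOfLe hT0.1).toEquiv, hj]
      have hjk' : j + (k - j) = k := by omega
      obtain ⟨K₀, hK₀n, hTK₀, hK₀c⟩ := we_exists_normal_card hS (k - j) (T0.subgroupOf S) j hnorm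
        hcT0 (by rw [hjk']; exact hkn.le)
      rw [hjk'] at hK₀c
      have hHS : K₀.map S.subtype ≤ S := by
        rintro _ ⟨y, -, rfl⟩
        exact y.2
      have hT0H : T0 ≤ K₀.map S.subtype := by
        intro t ht
        exact ⟨⟨t, hT0.1 ht⟩, hTK₀ (Subgroup.mem_subgroupOf.2 ht), rfl⟩
      have hHc : Nat.card (K₀.map S.subtype : Subgroup Ω) = p ^ k := by
        rw [Subgroup.card_map_of_injective S.subtype_injective]
        exact hK₀c
      have hHn : ∀ s ∈ S, ∀ x ∈ K₀.map S.subtype, s * x * s⁻¹ ∈ K₀.map S.subtype := by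
        rintro s hs _ ⟨y, hy, rfl⟩
        exact ⟨⟨s, hs⟩ * y * ⟨s, hs⟩⁻¹, hK₀n.conj_mem y hy ⟨s, hs⟩, rfl⟩
      have hHsc : F.StronglyClosed (K₀.map S.subtype) := by
        rw [stronglyClosed_iff]
        refine ⟨hHS, fun R f hR hf x hx => ?_⟩
        obtain ⟨s, hs, hsf⟩ := Cfsg.Agent.H87.mor_mod_hyperfocal hS hF hf
        have e : f x = (s * x * s⁻¹) * ((s * x * s⁻¹)⁻¹ * f x) := by group
        rw [e]
        exact Subgroup.mul_mem _ (hHn s hs x (hR hx)) (hT0H (hYT0 (hsf x hx)))
      have hconj := hii _ hHsc hHc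
      have hT0n : F.IsNormal T0 := by
        rw [isNormal_iff_stronglyClosed hS hF]
        refine ⟨hT0, fun P hPc _ t ht => ?_⟩
        apply hPc.2 P (isConj_refl F hPc.1)
        rw [mem_centralizerIn_iff]
        exact ⟨hT0.1 ht, fun x hx => mul_inv_eq_iff_eq_mul.1 (hcen t ht x (hPc.1 hx))⟩
      have hKS : (frattini S).map S.subtype ≤ S := by
        rintro _ ⟨y, -, rfl⟩
        exact y.2
      have hfix : ∀ f, Mor F T0 f → imgS T0 f = T0 → ∀ y ∈ T0,
          y⁻¹ * f y ∈ (frattini S).map S.subtype := by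
        intro f hf himg y hy
        have hrec : F.IsReceptive T0 := saturated_receptive_of_fullyCentralized hS hF
          (Cfsg.Agent.H87.fullyCentralized_of_stronglyClosed hT0)
        obtain ⟨f', hf', hf'f⟩ := receptive_extend' hrec hf himg
        have hSle : S ≤ extSub S T0 f := by
          intro s hs
          apply centralizerIn_le_extSub hf
          rw [mem_centralizerIn_iff]
          exact ⟨hs, fun x hx => (mul_inv_eq_iff_eq_mul.1 (hcen x hx s hs)).symm⟩
        obtain ⟨s, hs, hsf⟩ := hconj (extSub S T0 f) f' (hHS.trans hSle) hf'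
        have hyE : y ∈ extSub S T0 f := hSle (hT0.1 hy)
        have h1 : f y = y := by
          rw [← hf'f y hy, hsf y hyE, hcen y hy s hs]
        rw [h1, inv_mul_cancel]
        exact Subgroup.one_mem _
      have hfoc := normal_inf_focal_le hS hF hT0n hKS
        (fun a ha b hb => comm_mem_frattini_map hS ha hb) hfix
      apply hYM
      intro y hy
      exact hΦM (hfoc y (hYT0 hy) (Cfsg.Agent.H87.hyperfocal_le_focal F p hy))
    · have hXc : Nat.card (M₀.map S.subtype ⊓ T0 : Subgroup Ω) ≤ p ^ k :=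
        (Subgroup.card_le_of_le inf_le_right).trans hT0c
      obtain ⟨Q, hXQ, hQM, hQc⟩ := we_exists_between hMp
        (inf_le_left : M₀.map S.subtype ⊓ T0 ≤ M₀.map S.subtype) hXc hMc
      obtain ⟨P, hP, hQP, hQiP⟩ := hi Q (hQM.trans hMS) hQc
      have hQ1 : Q ≠ ⊥ := by
        rintro rfl
        rw [Subgroup.card_bot] at hQc
        exact absurd hQc.symm (Nat.one_lt_pow hk.ne' hp1).ne'
      have h1 : Q ⊓ P = ⊥ := by
        by_contra h
        exact hYM ((hYle _ hQiP h).trans (inf_le_left.trans hQM))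
      by_cases hP1 : P = ⊥
      · rw [hP1, sup_bot_eq] at hQP
        exact hYM ((hYle _ hQP hQ1).trans hQM)
      · have hPT : P ⊓ T0 ≠ ⊥ := by
          intro h
          apply hY
          rw [eq_bot_iff, ← h]
          exact le_inf (hYle P hP hP1) hYT0
        have hT0P : T0 ≤ P := by
          have h' := hT0min _ (Cfsg.Agent.H90.stronglyClosed_inf hP hT0) hPT inf_le_right
          rw [← h']
          exact inf_le_left
        apply hMT
        rw [eq_bot_iff, ← h1]
        exact le_inf hXQ (inf_le_right.trans hT0P)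
  have hfoc : F.focalSubgroup ≤ (frattini S).map S.subtype := by
    rw [focal_eq_hyperfocal_sup hS hF]
    exact sup_le hYfr (Subgroup.map_mono (Cfsg.Agent.H3.commutator_le_frattini hS))
  exact hY (hyperfocal_eq_bot_of_focal_le_frattini hS hF hfoc)

/-- **Main theorem**: by induction on `|S|`. -/
theorem we_main (p : ℕ) [Fact p.Prime] : ∀ (n : ℕ) (Ω : Type u) [Group Ω] (S : Subgroup Ω)
    [Finite S] (F : FusionSystem S) (k : ℕ), Nat.card S = n → IsPGroup p S → F.IsSaturated p →
    0 < k → p ^ k < Nat.card S → WEi F (p ^ k) → WEii F (p ^ k) →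
    F.hyperfocalSubgroup p = ⊥ := by
  intro n
  induction n using Nat.strong_induction_on with
  | _ n ih =>
    intro Ω _ S _ F k hn hS hF hk hkn hi hii
    have ih' : ∀ (Ω' : Type u) [Group Ω'] (S' : Subgroup Ω') [Finite S'] (E : FusionSystem S')
        (k' : ℕ), Nat.card S' < Nat.card S → IsPGroup p S' → E.IsSaturated p → 0 < k' →
        p ^ k' < Nat.card S' → WEi E (p ^ k') → WEii E (p ^ k') →
        E.hyperfocalSubgroup p = ⊥ := by
      intro Ω' _ S' _ E k' hlt hS' hE hk' hkn' hi' hii'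
      exact ih (Nat.card S') (by rw [← hn]; exact hlt) Ω' S' E k' rfl hS' hE hk' hkn' hi' hii'
    exact we_final hS hF hk hkn hi hii
      (fun T hT hT1 hTmin => we_stepM hS hF hk hkn hi hii ih' hT hT1 hTmin)

end Cfsg.Agent.H90
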